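import Cfsg.Agent.H11.Gm0

/-! Minimal degree of `G₂(q)`: the vacuum vector of a small representation (`pC`). -/
set_option autoImplicit false
namespace H6.GmC
open H24 H11.Gm Module
universe u v w

theorem wt_eq {F G M : Type*} [Field F] [Group G] [AddCommGroup M] [Module ℂ M] {S : Sy F G} {ρ : G →* End ℂ M}
    {ψ : AddChar F ℂ} (hψ : ψ ≠ 1) {r : ℕ} {a b : F} {x : M} (x0 : x ≠ 0) (ha : x ∈ J S ρ ψ r a)
    (hb : x ∈ J S ρ ψ r b) : a = b :=
  sub_eq_zero.1 (eq_zero_of_forall_addChar_mul hψ fun c => by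
    have e : ψ (c * a) = ψ (c * b) := smul_left_injective ℂ x0 ((mem_J.1 ha c).symm.trans (mem_J.1 hb c))
    have k : ψ (c * (a - b)) * ψ (c * b) = 1 * ψ (c * b) := by
      rw [← AddChar.map_add_eq_mul, one_mul, ← e]; congr 1; ring
    refine mul_right_cancel₀ (fun z => ?_) k
    have := AddChar.map_add_eq_mul ψ (c * b) (-(c * b))
    rw [z] at this
    simp at this)

theorem pC (hB : PB.{u, v, w}) : PC.{u, v, w} := by
  intro F G M _ _ _ _ _ _ S ρ ψ hψ h3 q2 q4 hx hM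
  classical
  have c710 := S.cm (7, 10) (by simp)
  have c711 := S.cm (7, 11) (by simp)
  have c910 := S.cm (9, 10) (by simp)
  have c911 := S.cm (9, 11) (by simp)
  have c810 := S.cm (8, 10) (by simp)
  have c811 := S.cm (8, 11) (by simp)
  have c69 := S.cm (6, 9) (by simp)
  have c611 := S.cm (6, 11) (by simp)
  dsimp only at c710 c711 c910 c911 c810 c811 c69 c611
  set V := J S ρ ψ 10 1 ⊓ J S ρ ψ 11 0 with hV
  have mv : ∀ ν t : F, finrank ℂ ↥(V ⊓ J S ρ ψ 9 ν) ≤ finrank ℂ ↥(V ⊓ J S ρ ψ 9 (ν - 3 * t)) := fun ν t =>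
    fr_le (ρ := ρ) (S.x 7 t) fun y hy => ⟨⟨J_comm (fun u => (c710 t u).symm) hy.1.1,
      J_comm (fun u => (c711 t u).symm) hy.1.2⟩, mem_J.2 fun u => by
        rw [← app, S.c79, app, app, mem_J.1 hy.1.1, map_smul, map_smul, mem_J.1 hy.2, map_smul, smul_smul,
          ← AddChar.map_add_eq_mul]
        congr 2; ring⟩
  have eq : ∀ ν : F, finrank ℂ ↥(V ⊓ J S ρ ψ 9 ν) = finrank ℂ ↥(V ⊓ J S ρ ψ 9 0) := fun ν => by
    have a := mv ν (ν / 3)
    have b := mv 0 (-ν / 3)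
    rw [show ν - 3 * (ν / 3) = 0 by field_simp; ring] at a
    rw [show 0 - 3 * (-ν / 3) = ν by field_simp; ring] at b
    omega
  have s9 := sum_fr (S := S) (ρ := ρ) hψ (U := V) (r := 9) fun u y hy =>
    ⟨J_comm (fun t => (c910 u t).symm) hy.1, J_comm (fun t => (c911 u t).symm) hy.2⟩
  simp only [eq, Finset.sum_const, Finset.card_univ, smul_eq_mul] at s9
  obtain ⟨b1, -⟩ := hB S ρ ψ hψ ⊤ fun _ _ _ => trivial
  rw [top_inf_eq, top_inf_eq, finrank_top, ← hV] at b1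
  have q1 := Fintype.one_lt_card (α := F)
  have m1 : finrank ℂ ↥(V ⊓ J S ρ ψ 9 0) = 1 := by
    generalize finrank ℂ ↥(V ⊓ J S ρ ψ 9 0) = m at s9
    rw [← s9] at b1
    rcases Nat.lt_trichotomy m 1 with k | k | k
    · obtain rfl : m = 0 := by omega
      have := Submodule.eq_top_of_finrank_eq (by simpa using b1.symm :
        finrank ℂ ↥(J S ρ ψ 10 0 ⊓ J S ρ ψ 11 0) = finrank ℂ M)
      exact absurd (LinearMap.ext fun y => mem_J0.1 (this.ge (Submodule.mem_top (x := y))).1 1) hx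
    · exact k
    · exfalso
      generalize Fintype.card F = q at *
      obtain ⟨p, hp⟩ : ∃ p, q ^ 2 = p + 1 := ⟨q ^ 2 - 1, by have := Nat.one_le_pow 2 q (by omega); omega⟩
      rw [hp, Nat.add_sub_cancel] at b1
      have a1 : p * (q * 2) ≤ p * (q * m) := Nat.mul_le_mul_left _ (Nat.mul_le_mul_left _ k)
      have a2 : q ^ 3 = p * q + q := by rw [pow_succ, hp]; ring
      have a3 : 3 ≤ p := by nlinarith
      nlinarith
  set L := V ⊓ J S ρ ψ 9 0 with hL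
  have wt : ∀ r, (∀ u, ∀ y ∈ L, ρ (S.x r u) y ∈ L) → ∃ α, L ≤ J S ρ ψ r α := fun r hr => by
    have := sum_fr (S := S) (ρ := ρ) hψ hr
    rw [m1] at this
    obtain ⟨α, -, k⟩ := Finset.exists_ne_zero_of_sum_ne_zero (this.trans_ne one_ne_zero)
    exact ⟨α, inf_eq_left.1 (Submodule.eq_of_le_of_finrank_le inf_le_left (by omega))⟩
  obtain ⟨α, hα⟩ := wt 8 fun u y hy => ⟨⟨J_comm (fun t => (c810 u t).symm) hy.1.1,
    J_comm (fun t => (c811 u t).symm) hy.1.2⟩, mem_J0.2 fun t => by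
      rw [← app, S.c89, app, app, mem_J0.1 hy.1.2, mem_J0.1 hy.2]⟩
  obtain ⟨β, hβ⟩ := wt 6 fun u y hy => ⟨⟨mem_J.2 fun t => by
      rw [← app, S.c6A, app, app, mem_J0.1 hy.1.2, mem_J.1 hy.1.1, map_smul],
    J_comm (fun t => (c611 u t).symm) hy.1.2⟩, J_comm (fun t => (c69 u t).symm) hy.2⟩
  obtain ⟨y, hy, y0⟩ := Submodule.exists_mem_ne_zero_of_ne_bot (p := L) fun e => by
    rw [e, finrank_bot] at m1; omega
  have cj : ∀ (c : Fˣ), ∀ r ∈ [6, 7, 8, 9, 10, 11], ∀ m, y ∈ J S ρ ψ r m →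
      ρ (S.h 8 c) y ∈ J S ρ ψ r (m / (c ^ pr 8 r : Fˣ)) := fun c r hr m k =>
    J_conj (Units.ne_zero _) (S.tor 8 (by simp) r hr c) k
  have hL' : ∀ c : Fˣ, ρ (S.h 8 c) y ∈ L := fun c => ⟨⟨by simpa [pr] using cj c 10 (by simp) 1 hy.1.1,
    by simpa using cj c 11 (by simp) 0 hy.1.2⟩, by simpa using cj c 9 (by simp) 0 hy.2⟩
  have n0 : ∀ c : Fˣ, ρ (S.h 8 c) y ≠ 0 := fun c e => y0 (inj (ρ := ρ) _ (e.trans (map_zero _).symm))
  have zero : ∀ (a : F) (c : Fˣ), c ≠ 1 → a = a / c → a = 0 := fun a c c1 e => by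
    by_contra a0
    rw [eq_div_iff c.ne_zero, mul_eq_left₀ a0] at e
    exact c1 (Units.ext e)
  obtain ⟨c, hc⟩ := exists_cube_ne_one q2 q4
  obtain ⟨d, hd⟩ : ∃ d : Fˣ, d ^ 2 ≠ 1 := by
    by_contra k
    push Not at k
    have k1 := Nat.le_of_dvd two_pos ((FiniteField.forall_pow_eq_one_iff F 2).1 k)
    have k2 : Fintype.card F = 3 := by omega
    exact h3 (by simpa [k2] using FiniteField.cast_card_eq_zero F)
  have β0 : β = 0 := zero β (c ^ 3) hc (wt_eq hψ (n0 c) (hβ (hL' c)) (cj c 6 (by simp) β (hβ hy)))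
  have α0 : α = 0 := zero α (d ^ 2) hd (wt_eq hψ (n0 d) (hα (hL' d)) (cj d 8 (by simp) α (hα hy)))
  exact ⟨by rw [← s9, m1, mul_one], m1, y, y0, hy.1.1, hy.1.2, hy.2, α0 ▸ hα hy, β0 ▸ hβ hy⟩

end H6.GmC
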