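import Cfsg.Agent.H6.J1Loc
import Cfsg.Agent.H3.HallTransfer

/-! The Schur multiplier of `J₁` is trivial: `H6.J.stem_eq_bot`. Also `top_of_gen` (a subgroup of `B`
containing `t0 x0 v0 w0` is everything). -/

set_option autoImplicit false
set_option linter.unusedSectionVars false
set_option maxRecDepth 100000

namespace H6.J

open H15 Subgroup H18
open scoped commutatorElement

theorem top_of_gen {K : Subgroup B} (ht : t0 ∈ K) (hx : x0 ∈ K) (hv : v0 ∈ K) (hw : w0 ∈ K) (b : B) : b ∈ K := by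
  obtain ⟨e, j, k, i, l, rfl⟩ := gen_B b
  exact mul_mem (mul_mem (mul_mem (mul_mem (pow_mem ht _) (pow_mem hv _))
    (pow_mem (mul_mem (mul_mem hx hv) (inv_mem hx)) _)) (pow_mem hx _))
    (pow_mem (mul_mem (mul_mem hw hv) (inv_mem hx)) _)

theorem gen_comm : x0 = ⁅w0, x0⁆ ∧ v0 = ⁅x0, y0⁆ ∧ w0 = ⁅x0 * v0 * x0, x0 * v0 * x0 * w0⁆ := by
  simp only [commutatorElement_def]
  refine ⟨?_, ?_, ?_⟩ <;> decide +kernel

variable {Γ G : Type*} [Group Γ] [Group G] {σ : Γ →* G}

theorem comm_of_lift (hs : Function.Surjective σ) (hz : σ.ker ≤ center Γ) {φ : B →* G} {a : Γ}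
    (ha : σ a = φ t0) {c : Γ} (b : B) (hc : σ c = φ b) : a * c = c * a := by
  have k1 : ∀ {c : Γ} {b : B}, σ c = φ b → ∀ g, g * (a * c * a⁻¹ * c⁻¹) = a * c * a⁻¹ * c⁻¹ * g := fun {c b} hc =>
    mem_center_iff.1 (hz (by
      rw [MonoidHom.mem_ker, map_mul, map_mul, map_mul, map_inv, map_inv, ha, hc, ← comm_t]; group))
  have k2 : ∀ {c d : Γ}, σ c = σ d → a * c = c * a → a * d = d * a := fun {c d} e h => by
    have := mem_center_iff.1 (hz (show c⁻¹ * d ∈ σ.ker by simp [MonoidHom.mem_ker, e])) a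
    calc a * d = a * c * (c⁻¹ * d) := by group
      _ = c * (a * (c⁻¹ * d)) := by rw [h]; group
      _ = _ := by rw [this]; group
  let K : Subgroup B :=
    { carrier := {b | ∀ c, σ c = φ b → a * c = c * a}
      one_mem' := fun c hc => k2 (c := 1) (by simpa using hc.symm) (by simp)
      mul_mem' := fun {b b'} h h' c hc => by
        obtain ⟨d, hd⟩ := hs (φ b)
        obtain ⟨d', hd'⟩ := hs (φ b')
        refine k2 (c := d * d') (by rw [hc, map_mul, map_mul, hd, hd']) ?_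
        rw [← mul_assoc, h d hd, mul_assoc, h' d' hd', mul_assoc]
      inv_mem' := fun {b} h c hc => by
        have := h c⁻¹ (by rw [map_inv, hc, map_inv, inv_inv])
        calc a * c = c * (c⁻¹ * a) * c := by group
          _ = _ := by rw [← this]; group }
  have k3 : ∀ b b' : B, ⁅b, b'⁆ ∈ K := fun b b' c hc => by
    obtain ⟨d, hd⟩ := hs (φ b)
    obtain ⟨d', hd'⟩ := hs (φ b')
    refine k2 (c := ⁅d, d'⁆) (by rw [hc, map_commutatorElement, map_commutatorElement, hd, hd']) ?_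
    have e1 := k1 hd
    have e2 := k1 hd'
    set z := a * d * a⁻¹ * d⁻¹ with hz1
    set z' := a * d' * a⁻¹ * d'⁻¹ with hz2
    have f1 : a * d * a⁻¹ = z * d := by rw [hz1]; group
    have f2 : a * d' * a⁻¹ = z' * d' := by rw [hz2]; group
    clear_value z z'
    calc a * ⁅d, d'⁆ = (a * d * a⁻¹) * (a * d' * a⁻¹) * (a * d * a⁻¹)⁻¹ * (a * d' * a⁻¹)⁻¹ * a := by
          rw [commutatorElement_def]; group
      _ = z * (d * z') * d' * d⁻¹ * z⁻¹ * d'⁻¹ * z'⁻¹ * a := by rw [f1, f2]; group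
      _ = (z' * z * (d * d' * d⁻¹)) * z⁻¹ * d'⁻¹ * z'⁻¹ * a := by
          rw [e2 d, ← mul_assoc z, e2 z]; group
      _ = (z' * ((d * d' * d⁻¹) * d'⁻¹)) * z'⁻¹ * a := by rw [mul_assoc z', ← e1]; group
      _ = _ := by rw [← e2, commutatorElement_def]; group
  refine top_of_gen (K := K) (fun c hc => k2 (c := a) (ha.trans hc.symm) rfl) ?_ ?_ ?_ b c hc
  · rw [gen_comm.1]; exact k3 _ _
  · rw [gen_comm.2.1]; exact k3 _ _
  · rw [gen_comm.2.2]; exact k3 _ _

theorem St.stem [Finite Γ] [Finite G] {φ : B →* G} {p : G} (h : St φ) (hr : Rel φ p) (hG : Nat.card G = 175560)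
    (hs : Function.Surjective σ) (hz : σ.ker ≤ center Γ) (hd : σ.ker ≤ commutator Γ) : σ.ker = ⊥ := by
  rw [eq_bot_iff_forall]
  intro z0 hz0
  by_contra h1
  obtain ⟨k, hk⟩ := exists_prime_pow h1
  set z := z0 ^ k
  have hzk : z ∈ σ.ker := pow_mem hz0 k
  set r := orderOf z with hr'
  have := Fact.mk hk
  obtain ⟨R, hR⟩ := (IsPGroup.of_card (n := 1) (G := zpowers z) (p := r) (by simp [r])).exists_le_sylow
  have ab : ∀ a ∈ (R : Subgroup Γ), ∀ b ∈ (R : Subgroup Γ), a * b = b * a := by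
    have hQ : IsPGroup r ((R : Subgroup Γ).map σ) := R.2.map σ
    by_cases h2 : r = 2
    · intro a ha b hb
      obtain ⟨g, hg⟩ := exists_conj_SS h.inj h.syl (Q := (R : Subgroup Γ).map σ) fun x =>
        (hQ x).imp fun n hn => by rw [← h2]; exact hn
      have a1 := hg _ (mem_map_of_mem σ ha)
      have b1 := hg _ (mem_map_of_mem σ hb)
      by_cases e : g * σ a * g⁻¹ = 1
      · exact (mem_center_iff.1 (hz (by simpa [conj_eq_one_iff] using e)) b).symm
      obtain ⟨u, hu⟩ := hr.conj_t h.inj h.syl (SS_sq a1) e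
      obtain ⟨c, hc⟩ := hs (u⁻¹ * g)
      obtain ⟨b0, hb0⟩ := h.cent (u⁻¹ * (g * σ b * g⁻¹) * u) (by
        calc _ = u⁻¹ * ((g * σ b * g⁻¹) * (u * φ t0 * u⁻¹)) * u := by group
          _ = u⁻¹ * ((u * φ t0 * u⁻¹) * (g * σ b * g⁻¹)) * u := by rw [hu, SS_comm b1 a1]
          _ = _ := by group)
      have := comm_of_lift hs hz (φ := φ) (a := c * a * c⁻¹) (c := c * b * c⁻¹) (by
        rw [map_mul, map_mul, map_inv, hc]
        calc _ = u⁻¹ * (g * σ a * g⁻¹) * u := by group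
          _ = _ := by rw [← hu]; group) b0 (by rw [hb0, map_mul, map_mul, map_inv, hc]; group)
      rw [conj_mul, conj_mul] at this
      simpa using this
    · have hc : IsCyclic ((R : Subgroup Γ).map σ) := by
        obtain ⟨n, hn⟩ := hQ.exists_card_eq
        have h3 : r ^ n ∣ 175560 := hn ▸ hG ▸ card_subgroup_dvd_card _
        have h4 : n ≤ 1 := by
          by_contra h4
          have h5 : r ^ 2 ∣ 175560 := (pow_dvd_pow r (by omega)).trans h3
          have h9 : (r ^ 2).Coprime (2 ^ 3) := Nat.Coprime.pow _ _ ((Nat.coprime_primes hk Nat.prime_two).2 h2)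
          have h10 : r * r ∣ 3 * 5 * 7 * 11 * 19 := sq r ▸ h9.dvd_of_dvd_mul_left h5
          have h11 : Squarefree (3 * 5 * 7 * 11 * 19 : ℕ) := by
            simp only [Nat.squarefree_mul_iff]; norm_num [Nat.Prime.prime, Prime.squarefree]
          exact hk.ne_one (Nat.isUnit_iff.1 (h11 r h10))
        exact isCyclic_of_card_dvd_prime (p := r) (hn ▸ (pow_dvd_pow r h4).trans (by simp))
      intro a ha b hb
      have := ((σ.subgroupMap R).isMulCommutative_of_isCyclic_of_ker_le_center (fun x hx => mem_center_iff.2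
        fun y => Subtype.ext (mem_center_iff.1 (hz (congrArg Subtype.val hx)) y))).is_comm.comm ⟨a, ha⟩ ⟨b, hb⟩
      exact congrArg Subtype.val this
  have h3 := H3.sylow_inf_center_inf_commutator_le R ⟨⟨hR (mem_zpowers z), hz hzk⟩, hd hzk⟩
  rw [commutator_eq_bot_iff_le_centralizer.2 fun a ha => mem_centralizer_iff.2 fun b hb => ab b hb a ha] at h3
  rw [mem_bot.1 h3, orderOf_one] at hr'
  exact hk.ne_one hr'

theorem stem_eq_bot [Finite Γ] {σ : Γ →* Cfsg.Spor.J1} (hs : Function.Surjective σ) (hz : σ.ker ≤ center Γ)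
    (hd : σ.ker ≤ commutator Γ) : σ.ker = ⊥ := by
  obtain ⟨φ, h, hr, -⟩ := J1.exists_st
  exact h.stem hr J1.card_J1 hs hz hd

end H6.J
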