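import Cfsg.Agent.H6.AltCen
import Cfsg.Agent.H6.JMult
import Cfsg.Agent.H21.Crit
import Cfsg.Agent.H9.Glaub

/-! A `2`-central involution `t` whose weak closure in `C(t)` is `Z₂ × A₅`: `⟨t^G⟩ ≅ J₁` (`H6.J.Wk.iso`). -/

set_option autoImplicit false
set_option linter.unusedSectionVars false
set_option maxRecDepth 100000
set_option synthInstance.maxSize 100000
set_option synthInstance.maxHeartbeats 2000000

namespace H6.J

open H15 Subgroup H18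
open scoped commutatorElement

theorem cls1 : ∀ b : B, b * b = 1 → b.1 = 1 → b = 1 ∨ ∃ c, c * v0 * c⁻¹ = b := by decide +kernel
theorem cls2 : ∀ b : B, b * b = 1 → b.1 ≠ 1 → b = t0 ∨ ∃ c, c * (v0 * t0) * c⁻¹ = b := by decide +kernel
theorem inn_B : ∀ x : B, x * v0 * x⁻¹ = y0 ∧ x * x * x = 1 → ∀ w : B, w ≠ 1 ∧ w * w = 1 ∧ x * w * x * w = 1 ∧
    v0 * w * v0 * w * v0 * w = 1 → ∃ b, b * v0 * b⁻¹ = v0 ∧ b * x0 * b⁻¹ = x ∧ b * w0 * b⁻¹ = w := by decide +kernel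
theorem fix_y : ∀ b : B, inS b ∧ b.1 = 1 ∧ b ≠ 1 ∧ b ≠ v0 → b * y0⁻¹ = 1 ∨ b * y0⁻¹ = v0 := by decide +kernel
theorem cent_xS : ∀ b : B, inS b ∧ b * x0 = x0 * b → b = 1 ∨ b = t0 := by decide +kernel
theorem ncard_tV : {b : B | inS b ∧ b.1 ≠ 1}.ncard = 4 := by
  rw [Set.ncard_eq_toFinset_card', Set.toFinset_ofPred]; decide +kernel
theorem misc2 : t0.1 ≠ 1 ∧ x0.1 = 1 ∧ v0.1 = 1 ∧ w0.1 = 1 ∧ y0.1 = 1 ∧ w0 ≠ 1 ∧ y0 ≠ 1 ∧ inS (y0 * v0) ∧ y0 * v0 ≠ 1 ∧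
    y0 * (y0 * v0) = v0 ∧ v0 * x0 ≠ x0 * v0 ∧ x0 * (v0 * t0) * x0⁻¹ = y0 * t0 ∧ inS (v0 * t0) ∧ inS (y0 * t0) ∧
    v0 * t0 ≠ 1 ∧ y0 * y0 = 1 := by
  refine ⟨?_, ?_, ?_, ?_, ?_, ?_, ?_, ?_, ?_, ?_, ?_, ?_, ?_, ?_, ?_, ?_⟩ <;> decide +kernel

variable {G : Type*} [Group G]

theorem refl_conj {a b : G} (a2 : a * a = 1) (b2 : b * b = 1) (k : ℕ) :
    IsConj a ((a * b) ^ k * a) ∨ IsConj b ((a * b) ^ k * a) := by
  have ai := H9.inv_eq_of_mul_self a2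
  obtain ⟨m, rfl | rfl⟩ := Nat.even_or_odd' k
  · refine .inl (isConj_iff.2 ⟨(a * b) ^ m, ?_⟩)
    rw [← H9.conj_pow_of_inverts (H9.left_inverts a2 b2) m, two_mul, pow_add]
    calc _ = (a * b) ^ m * (a * a) * (a * b) ^ m * a⁻¹ := by group
      _ = _ := by rw [a2, ai, mul_one]
  · refine .inr (isConj_iff.2 ⟨(a * b) ^ m * a, ?_⟩)
    rw [mul_inv_rev, ← H9.conj_pow_of_inverts (H9.left_inverts a2 b2) m, two_mul, add_assoc, add_comm m 1,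
      pow_add, pow_add, pow_one]
    calc _ = (a * b) ^ m * (a * b) * (a * b) ^ m * a⁻¹ := by group
      _ = _ := by rw [ai]; simp only [mul_assoc]

theorem exists_comm [Finite G] {p : ℕ} {S E : Subgroup G} (hS : PiGrp {p} S) (hE : PiGrp {p} E) (hn : S ≤ N(E))
    (hc : ¬ S ≤ C(E)) : ∃ y ∈ E, ∃ σ ∈ S, σ * y * σ⁻¹ * y⁻¹ ≠ 1 ∧ σ ∈ C1(σ * y * σ⁻¹ * y⁻¹) := by
  obtain ⟨K, hK, ⟨h1, h2⟩, h3⟩ := exists_minimal_sub (fun K => S ≤ N(K) ∧ ¬ S ≤ C(K)) ⟨hn, hc⟩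
  have h4 := hS.comm_lt (hE.of_le hK) h1 (by rintro rfl; simp at h2)
  have h5 : S ≤ C(⁅K, S⁆) := by
    by_contra h5
    exact h4.ne (h3 _ ⟨norm_comm_right, h5⟩ h4.le)
  rw [cent_iff] at h2
  push Not at h2
  obtain ⟨σ, hσ, y, hy, e⟩ := h2
  refine ⟨y, hK hy, σ, hσ, fun e' => e (by rwa [mul_inv_eq_one, mul_inv_eq_iff_eq_mul] at e'), ?_⟩
  have h6 : ⁅σ, y⁆ ∈ ⁅K, S⁆ := by rw [H18.comm_comm]; exact commutator_mem_commutator hσ hy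
  exact C_le_C1 h6 (h5 hσ)

/-- the weak closure of `t = ψ t0` in `C(t)` is the image of `ψ` -/
structure Wk (S : Subgroup G) (ψ : B →* G) : Prop where
  inj : Function.Injective ψ
  syl : Hall {2} S ⊤
  cen : S ≤ C1(ψ t0)
  le : SS ψ ≤ S
  nml : C1(ψ t0) ≤ N(ψ.range)
  ex : ∃ b, b ≠ t0 ∧ IsConj (ψ t0) (ψ b)
  mem : ∀ x, IsConj (ψ t0) x → x ∈ C1(ψ t0) → x ∈ ψ.range

theorem SS_le (ψ : B →* G) : SS ψ ≤ ψ.range := map_le_range _ _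

theorem hall_SS [Finite G] {ψ : B →* G} (hi : Function.Injective ψ) : Hall {2} (SS ψ) ψ.range :=
  hall_of_card_mul (n := 15) (SS_le ψ) (piGrp_of_card_pow (n := 3) Nat.prime_two (card_SS hi))
    ((piNat_compl_iff Nat.prime_two).2 (by norm_num))
    (by rw [card_SS hi, ← Nat.card_congr (MonoidHom.ofInjective hi).toEquiv, card_B])

/-- the largest subgroup of `C(W)` normalized by `N(E)` -/
def ZZ (ψ : B →* G) : Subgroup G := ⨅ n : N(SS ψ), H18.cj (n : G)⁻¹ C(ψ.range)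

theorem mem_ZZ {ψ : B →* G} {z : G} : z ∈ ZZ ψ ↔ ∀ n ∈ N(SS ψ), n * z * n⁻¹ ∈ C(ψ.range) := by
  simp [ZZ, mem_iInf, H18.mem_cj]

theorem ZZ_le (ψ : B →* G) : ZZ ψ ≤ C(ψ.range) := fun z hz => by simpa using mem_ZZ.1 hz 1 (one_mem _)

theorem norm_ZZ [Finite G] (ψ : B →* G) : N(SS ψ) ≤ N(ZZ ψ) := norm_iff.2 fun a ha z hz => mem_ZZ.2 fun n hn => by
  simpa [mul_assoc] using mem_ZZ.1 hz _ (mul_mem hn ha)

theorem range_le_M (ψ : B →* G) : ψ.range ≤ N(ZZ ψ) := cent_norm (cent_symm (ZZ_le ψ))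

/-- the elements centralizing `S` modulo `E` -/
def cmod (S E : Subgroup G) : Subgroup G where
  carrier := {g | g ∈ N(E) ∧ ∀ s ∈ S, s * g * s⁻¹ * g⁻¹ ∈ E}
  one_mem' := ⟨one_mem _, fun s _ => by simp⟩
  mul_mem' := fun {a b} ha hb => ⟨mul_mem ha.1 hb.1, fun s hs => by
    convert mul_mem (ha.2 s hs) (conj_mem_N ha.1 (hb.2 s hs)) using 1; group⟩
  inv_mem' := fun {a} ha => ⟨inv_mem ha.1, fun s hs => by
    convert conj_mem_N' ha.1 (inv_mem (ha.2 s hs)) using 1; group⟩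

/-- the image of `ψ` in `N(Z)/Z` -/
def qψ (ψ : B →* G) : B →* Coset (ZZ ψ) :=
  (coset _).comp (ψ.codRestrict _ fun b => range_le_M ψ ⟨b, rfl⟩)

theorem qψ_eq (ψ : B →* G) (b : B) : qψ ψ b = cs (ZZ ψ) (ψ b) :=
  (mfun_of_mem (f := coset (ZZ ψ)) (range_le_M ψ ⟨b, rfl⟩)).symm

theorem split_B : ∀ b : B, b = (1, b.2) ∨ b = t0 * (1, b.2) := by decide +kernel

namespace Wk
variable [Finite G] {S : Subgroup G} {ψ : B →* G} (h : Wk S ψ) {a b g s x : G}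
include h

theorem sq (hx : IsConj (ψ t0) x) : x * x = 1 := by
  obtain ⟨c, rfl⟩ := isConj_iff.1 hx
  rw [conj_mul, ← map_mul, rel_B.2.2.2.1]; simp

theorem ne_one (hx : IsConj (ψ t0) x) : x ≠ 1 := by
  rintro rfl
  exact ne_B.1 (h.inj (by simpa using hx))

theorem inf : S ⊓ ψ.range = SS ψ :=
  (hall_SS h.inj).eq_of_le (le_inf h.le (SS_le ψ)) inf_le_right (h.syl.pi.of_le inf_le_left)

theorem mem_E (hx : IsConj (ψ t0) x) (hs : x ∈ S) : x ∈ SS ψ := h.inf ▸ ⟨hs, h.mem x hx (h.cen hs)⟩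

theorem exists_aut (hg : g ∈ C1(ψ t0)) :
    ∃ α : B →* B, (∀ b, ψ (α b) = g * ψ b * g⁻¹) ∧ α t0 = t0 ∧ ∀ b, (α b).1 = b.1 := by
  choose f hf using fun b => conj_mem_N (h.nml hg) (⟨b, rfl⟩ : ψ b ∈ ψ.range)
  let α : B →* B := MonoidHom.mk' f fun a b => h.inj (by rw [map_mul, hf, hf, hf, map_mul, conj_mul])
  have h0 : α t0 = t0 := h.inj ((hf _).trans (conj_eq_self_of_C1 hg))
  have k : ∀ b c : B, ⁅b, c⁆ ∈ ((MonoidHom.fst _ _).comp α).eqLocus (MonoidHom.fst _ _) := fun b c => by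
    change _ = _
    rw [map_commutatorElement, map_commutatorElement, commutatorElement_eq_one_iff_mul_comm.2 (mul_comm _ _),
      commutatorElement_eq_one_iff_mul_comm.2 (mul_comm _ _)]
  refine ⟨α, hf, h0, top_of_gen (K := ((MonoidHom.fst _ _).comp α).eqLocus (MonoidHom.fst _ _))
    (congrArg Prod.fst h0) ?_ ?_ ?_⟩
  · rw [gen_comm.1]; exact k _ _
  · rw [gen_comm.2.1]; exact k _ _
  · rw [gen_comm.2.2]; exact k _ _

theorem conj_ψ {b : B} (hb : IsConj (ψ t0) (ψ b)) (c : B) : IsConj (ψ t0) (ψ (c * b * c⁻¹)) :=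
  hb.trans (isConj_iff.2 ⟨ψ c, by simp⟩)

theorem conj_ψ' {b c : B} (hb : IsConj (ψ t0) (ψ (c * b * c⁻¹))) : IsConj (ψ t0) (ψ b) := by
  simpa [mul_assoc] using h.conj_ψ hb c⁻¹

theorem X0 : IsConj (ψ t0) (ψ v0) ∨ IsConj (ψ t0) (ψ (v0 * t0)) := by
  obtain ⟨b, h1, h2⟩ := h.ex
  have b2 : b * b = 1 := h.inj (by rw [map_mul, h.sq h2, map_one])
  by_cases e : b.1 = 1
  · obtain rfl | ⟨c, rfl⟩ := cls1 b b2 e
    · exact absurd (map_one ψ) (h.ne_one h2)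
    · exact .inl (h.conj_ψ' h2)
  · obtain rfl | ⟨c, rfl⟩ := cls2 b b2 e
    · exact absurd rfl h1
    · exact .inr (h.conj_ψ' h2)

theorem E_le {K : Subgroup G} (hK : ∀ b, inS b → IsConj (ψ t0) (ψ b) → ψ b ∈ K) : SS ψ ≤ K := by
  have ht : t0 ∈ K.comap ψ := hK _ inS_gen.1 (IsConj.refl _)
  obtain ⟨hv, hy⟩ : v0 ∈ K.comap ψ ∧ y0 ∈ K.comap ψ := by
    rcases h.X0 with e | e
    · exact ⟨hK _ inS_gen.2.1 e, hK _ inS_gen.2.2 (h.conj_ψ e x0)⟩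
    · obtain ⟨-, -, -, -, -, -, -, -, -, -, -, m1, m2, m3, -⟩ := misc2
      exact ⟨(mul_mem_cancel_right ht).1 (hK _ m2 e), (mul_mem_cancel_right ht).1 (hK _ m3 (m1 ▸ h.conj_ψ e x0))⟩
  intro s hs
  obtain ⟨b, hb, rfl⟩ := mem_SS.1 hs
  change b ∈ K.comap ψ
  rcases (inS_iff b).1 hb with rfl | rfl | rfl | rfl | rfl | rfl | rfl | rfl
  exacts [one_mem _, ht, hv, hy, mul_mem hv ht, mul_mem hy hv, mul_mem (mul_mem hv ht) hy, mul_mem hy ht]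

theorem conj_E (hs : s ∈ SS ψ) (hx : IsConj (ψ t0) s) : ∃ n ∈ N(SS ψ), n * ψ t0 * n⁻¹ = s := by
  obtain ⟨g, rfl⟩ := isConj_iff.1 hx
  have h1 : SS ψ ≤ H18.cj g ψ.range := h.E_le fun b hb e => H18.mem_cj.2 (h.mem _ (e.trans (isConj_iff.2 ⟨g⁻¹, by simp⟩))
    (mem_C1.2 (by
      calc _ = g⁻¹ * (ψ b * (g * ψ t0 * g⁻¹)) * g := by group
        _ = _ := by rw [SS_comm (mem_SS.2 ⟨b, hb, rfl⟩) hs]; group)))
  obtain ⟨_, ⟨w, rfl⟩, e⟩ := sylow_conj Nat.prime_two (hall_SS h.inj)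
    ((hall_SS h.inj).of_card (le_cj_iff.1 h1) card_cj)
  refine ⟨g * ψ w, mem_N_iff_cj.2 (by rw [H18.cj_mul, ← e, H18.cj_cj_inv]), ?_⟩
  calc _ = g * (ψ w * ψ t0) * (ψ w)⁻¹ * g⁻¹ := by group
    _ = _ := by rw [comm_t]; group

theorem S_norm : S ≤ N(SS ψ) := h.inf ▸ norm_inf le_N (h.cen.trans h.nml)

theorem X1 : IsConj (ψ t0) (ψ v0) := by
  by_contra hv
  have h1 := ncard_conj N(SS ψ) (ψ t0)
  have h2 : {y | ∃ l ∈ N(SS ψ), l * ψ t0 * l⁻¹ = y} = ψ '' {b : B | inS b ∧ b.1 ≠ 1} := by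
    ext y
    constructor
    · rintro ⟨l, hl, rfl⟩
      obtain ⟨b, hb, e⟩ := mem_SS.1 (conj_mem_N hl (t_mem ψ))
      have hx : IsConj (ψ t0) (ψ b) := isConj_iff.2 ⟨l, e.symm⟩
      refine ⟨b, ⟨hb, fun e1 => ?_⟩, e⟩
      obtain rfl | ⟨c, rfl⟩ := cls1 b (inS_sq b hb) e1
      exacts [h.ne_one hx (map_one ψ), hv (h.conj_ψ' hx)]
    · rintro ⟨b, ⟨hb, e⟩, rfl⟩
      refine h.conj_E (mem_SS.2 ⟨b, hb, rfl⟩) ?_
      obtain rfl | ⟨c, rfl⟩ := cls2 b (inS_sq b hb) e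
      exacts [IsConj.refl _, h.conj_ψ (h.X0.resolve_left hv) c]
  rw [h2, Set.ncard_image_of_injective _ h.inj, ncard_tV] at h1
  have := (piNat_compl_iff Nat.prime_two).1 ((h.syl.of_le h.S_norm le_top).idx_of_le h.cen)
  exact this (h1 ▸ by norm_num)

theorem X2 : IsConj (ψ t0) (ψ (v0 * t0)) := by
  by_contra hv
  obtain ⟨n, hn, e⟩ := h.conj_E (mem_SS.2 ⟨v0, inS_gen.2.1, rfl⟩) h.X1
  obtain ⟨m0, -, -, -, -, -, m1, m2, m3, m4, -⟩ := misc2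
  have k : ∀ b, inS b → IsConj (ψ t0) (ψ b) → ∃ a : B, (a = t0 ∨ a.1 = 1) ∧ a ≠ 1 ∧ a * a = 1 ∧
      ψ a = n⁻¹ * ψ b * n := fun b hb hx => by
    obtain ⟨a, ha, e⟩ := mem_SS.1 (conj_mem_N' hn (mem_SS.2 ⟨b, hb, rfl⟩))
    have hx' : IsConj (ψ t0) (ψ a) := hx.trans (isConj_iff.2 ⟨n⁻¹, by simp [e]⟩)
    refine ⟨a, or_iff_not_imp_right.2 fun e1 => ?_, fun e1 => h.ne_one hx' (e1 ▸ map_one ψ), inS_sq a ha, e⟩
    obtain rfl | ⟨c, rfl⟩ := cls2 a (inS_sq a ha) e1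
    exacts [rfl, absurd (h.conj_ψ' hx') hv]
  obtain ⟨a, a1, a2, a4, a3⟩ := k y0 inS_gen.2.2 (h.conj_ψ h.X1 x0)
  obtain ⟨b, b1, b2, -, b3⟩ := k _ m2 (x0_conj.2.1 ▸ h.conj_ψ (h.conj_ψ h.X1 x0) x0)
  have e' : a * b = t0 := h.inj (by
    calc _ = n⁻¹ * ψ (y0 * (y0 * v0)) * n := by rw [map_mul, a3, b3, map_mul ψ y0 (y0 * v0)]; group
      _ = _ := by rw [m4, ← e]; group)
  rcases a1 with rfl | a1
  · exact b2 (by simpa using e')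
  rcases b1 with rfl | b1
  · exact a2 (by simpa using e')
  exact m0 (by rw [← e', Prod.fst_mul, a1, b1, mul_one])

theorem inv_X {b : B} (b2 : b * b = 1) (b1 : b ≠ 1) : IsConj (ψ t0) (ψ b) := by
  by_cases e : b.1 = 1
  · obtain rfl | ⟨c, rfl⟩ := cls1 b b2 e
    exacts [absurd rfl b1, h.conj_ψ h.X1 c]
  · obtain rfl | ⟨c, rfl⟩ := cls2 b b2 e
    exacts [IsConj.refl _, h.conj_ψ h.X2 c]

theorem E_X (hs : s ∈ SS ψ) (s1 : s ≠ 1) : IsConj (ψ t0) s := by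
  obtain ⟨b, hb, rfl⟩ := mem_SS.1 hs
  exact h.inv_X (inS_sq b hb) (by rintro rfl; exact s1 (map_one ψ))

theorem trans (hs : s ∈ SS ψ) (s1 : s ≠ 1) : ∃ n ∈ N(SS ψ), n * ψ t0 * n⁻¹ = s := h.conj_E hs (h.E_X hs s1)

theorem mul_X (ha : IsConj (ψ t0) a) (hb : IsConj (ψ t0) b) (e : a * b = b * a) (ne : a * b ≠ 1) :
    IsConj (ψ t0) (a * b) := by
  obtain ⟨g, rfl⟩ := isConj_iff.1 ha
  have hb' : IsConj (ψ t0) (g⁻¹ * b * g) := hb.trans (isConj_iff.2 ⟨g⁻¹, by simp⟩)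
  obtain ⟨c, hc⟩ := h.mem _ hb' (mem_C1.2 (by
    calc _ = g⁻¹ * (b * (g * ψ t0 * g⁻¹)) * g := by group
      _ = _ := by rw [← e]; group))
  have c2 : c * c = 1 := h.inj (by rw [map_mul, hc, h.sq hb', map_one])
  have e2 : g * ψ (t0 * c) * g⁻¹ = g * ψ t0 * g⁻¹ * b := by rw [map_mul, hc]; group
  refine (h.inv_X (b := t0 * c) ?_ fun e1 => ne (by rw [← e2, e1]; simp)).trans (isConj_iff.2 ⟨g, e2⟩)
  rw [mul_assoc, ← mul_assoc c, t0_comm, mul_assoc, c2, mul_one, rel_B.2.2.2.1]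

theorem dih (ha : IsConj (ψ t0) a) (hb : IsConj (ψ t0) b) (he : ¬ Odd (orderOf (a * b))) :
    ∃ z ∈ zpowers (a * b), IsConj (ψ t0) z ∧ a ∈ C1(z) ∧ b ∈ C1(z) := by
  obtain ⟨h1, h2, h3⟩ := H9.central_involution (h.sq ha) (h.sq hb) (Nat.not_odd_iff_even.1 he)
  refine ⟨_, pow_mem (mem_zpowers _) _, ?_, mem_C1.2 h2.eq.symm, mem_C1.2 h3.eq.symm⟩
  have h4 := (refl_conj (h.sq ha) (h.sq hb) (orderOf (a * b) / 2)).elim ha.trans hb.trans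
  set z := (a * b) ^ (orderOf (a * b) / 2)
  have e : z * a * a = z := by rw [mul_assoc, h.sq ha, mul_one]
  exact e ▸ h.mul_X h4 ha (by rw [← mul_assoc, ← h2.eq]) (e.symm ▸ H9.ne_one_of_orderOf h1)

theorem core {σ y : G} (hσ : σ ∈ N(SS ψ)) (hy : y ∈ SS ψ) (hc : σ ∈ C1(σ * y * σ⁻¹ * y⁻¹)) :
    σ * y * σ⁻¹ * y⁻¹ = 1 := by
  by_contra h1
  obtain ⟨n, hn, e⟩ := h.trans (mul_mem (conj_mem_N hσ hy) (inv_mem hy)) h1
  obtain ⟨α, h2, -, h3⟩ := h.exists_aut (g := n⁻¹ * σ * n) (by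
    rw [← e, ← cj_C1] at hc; exact H18.mem_cj.1 hc)
  obtain ⟨b, -, hb⟩ := mem_SS.1 (conj_mem_N' hn hy)
  have : α b * b⁻¹ = t0 := h.inj (by
    rw [map_mul, map_inv, h2, hb]
    calc _ = n⁻¹ * (σ * y * σ⁻¹ * y⁻¹) * n := by group
      _ = _ := by rw [← e]; group)
  exact misc2.1 (by rw [← this, Prod.fst_mul, h3, Prod.fst_inv, mul_inv_cancel])

theorem S_cent : S ≤ C(SS ψ) := by
  by_contra hc
  obtain ⟨y, hy, σ, hσ, h1, h2⟩ := exists_comm h.syl.pi (hall_SS h.inj).pi h.S_norm hc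
  exact h1 (h.core (h.S_norm hσ) hy h2)

theorem inner (hg : g ∈ C1(ψ t0)) : ∃ b, ψ b * g ∈ C(ψ.range) := by
  obtain ⟨r1, r2, r3, -, -, r4, r5⟩ := rel_B
  obtain ⟨-, -, m1, -, m2, m3, m4, -⟩ := misc2
  wlog hv : g ∈ C1(ψ v0) generalizing g
  · obtain ⟨α, h1, -, h3⟩ := h.exists_aut hg
    obtain e | ⟨c, e⟩ := cls1 (α v0) (by rw [← map_mul, r2, map_one]) (by rw [h3, m1])
    · exact absurd (h.inj (by simpa [e, conj_eq_one_iff] using (h1 v0).symm)) ne_B.2.1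
    obtain ⟨b, hb⟩ := this (g := ψ c⁻¹ * g) (mul_mem (mem_C1.2 (comm_t ψ _)) hg) (mem_C1.2 (by
      calc _ = ψ c⁻¹ * (g * ψ v0 * g⁻¹) * g := by group
        _ = _ := by rw [← h1, ← e]; simp [mul_assoc]))
    exact ⟨b * c⁻¹, by rwa [map_mul, mul_assoc]⟩
  obtain ⟨α, h1, h2, h3⟩ := h.exists_aut hg
  have ai : Function.Injective α := fun a b e => h.inj (by simpa [h1] using congrArg ψ e)
  have av : α v0 = v0 := h.inj ((h1 _).trans (conj_eq_self_of_C1 hv))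
  have aS : ∀ b, inS b → inS (α b) := fun b hb => inS_of_comm_v0 _ (by rw [← av, ← map_mul, hb.1, map_mul])
  have gN : g ∈ N(SS ψ) := mem_N_of_finite fun s hs => by
    obtain ⟨b, hb, rfl⟩ := mem_SS.1 hs
    exact mem_SS.2 ⟨_, aS b hb, h1 b⟩
  have ay : α y0 = y0 := by
    refine (fix_y _ ⟨aS _ inS_gen.2.2, by rw [h3, m2], fun e => m4 (ai (e.trans (map_one α).symm)),
      fun e => ne_B.2.2.2.2 (ai (e.trans av.symm))⟩).elim mul_inv_eq_one.1 fun e => ?_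
    have e' : g * ψ y0 * g⁻¹ * (ψ y0)⁻¹ = ψ v0 := by rw [← h1, ← e, map_mul, map_inv]
    have := h.core gN (mem_SS.2 ⟨_, inS_gen.2.2, rfl⟩) (e' ▸ hv)
    exact absurd (h.inj (by rw [← e', this, map_one])) ne_B.2.1
  obtain ⟨b, e1, e2, e3⟩ := inn_B (α x0) ⟨by rw [← ay, ← av, ← map_inv, ← map_mul, ← map_mul]; rfl,
    by simpa using congrArg α r1⟩ (α w0) ⟨fun e => m3 (ai (e.trans (map_one α).symm)), by simpa using congrArg α r3,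
    by simpa using congrArg α r4, by simpa [av] using congrArg α r5⟩
  refine ⟨b⁻¹, mem_C.2 ?_⟩
  rintro _ ⟨a, rfl⟩
  have : α a = b * a * b⁻¹ := top_of_gen (K := α.eqLocus (MulAut.conj b).toMonoidHom)
    (h2.trans (by simp [t0_comm b])) e2.symm (av.trans e1.symm) e3.symm a
  calc _ = ψ b⁻¹ * ψ (b * a * b⁻¹) * g := by simp [mul_assoc]
    _ = _ := by rw [← this, h1]; group

theorem Y_dec (hg : g ∈ C(SS ψ)) : ∃ b, inS b ∧ ψ b * g ∈ C(ψ.range) := by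
  obtain ⟨b, hb⟩ := h.inner (C_le_C1 (t_mem ψ) hg)
  refine ⟨b, inS_of_comm_v0 _ (h.inj ?_), hb⟩
  rw [map_mul, map_mul]
  exact mem_C1.1 ((mul_mem_cancel_right (C_le_C1 (mem_SS.2 ⟨_, inS_gen.2.1, rfl⟩) hg)).1 (C_le_C1 (show _ ∈ ψ.range from ⟨v0, rfl⟩) hb))

theorem N_le : N(S) ≤ N(SS ψ) := norm_iff.2 fun n hn s hs => by
  by_cases e : s = 1
  · simp [e]
  · exact h.mem_E ((h.E_X hs e).trans (isConj_iff.2 ⟨n, rfl⟩)) (conj_mem_N hn (h.le hs))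

theorem x_cmod : ψ x0 ∈ cmod S (SS ψ) := by
  refine ⟨mem_N_of_finite fun s hs => ?_, fun s hs => ?_⟩
  · obtain ⟨b, hb, rfl⟩ := mem_SS.1 hs
    exact mem_SS.2 ⟨_, x0_norm b hb, by simp⟩
  · obtain ⟨b, hb, e⟩ := h.Y_dec (h.S_cent hs)
    have := mem_C.1 e _ ⟨x0, rfl⟩
    convert (SS ψ).mul_mem (inv_mem (mem_SS.2 ⟨b, hb, rfl⟩)) (mem_SS.2 ⟨_, x0_norm b hb, rfl⟩) using 1
    calc _ = (ψ b)⁻¹ * (ψ b * s * ψ x0) * s⁻¹ * (ψ x0)⁻¹ := by group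
      _ = _ := by rw [← this]; simp [mul_assoc]

theorem S_le : S ≤ SS ψ ⊔ ZZ ψ := by
  have hS := h.syl.of_le le_N le_top
  have xN : ψ x0 ∈ N(S) := mem_N_of_finite fun s hs => by
    convert mul_mem (inv_mem (h.le (h.x_cmod.2 s hs))) hs using 1; group
  obtain ⟨Γ, h1, h2, h3⟩ := H22.exists_sd_ge (H21.solv_of_odd_idx nml_N hS.pi.solv hS.idx) hS le_rfl
    (zpowers_le.2 xN) (piGrp_zpowers.2 (PiNat.of_p (piElt_of_pow_eq_one (p := 3) (x := ψ x0) (by norm_num) (by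
      rw [← map_pow, misc.1, map_one])) (by norm_num)))
  have hc : H1.Cop (Γ ⊓ cmod S (SS ψ)) S :=
    H1.cop_of_pi' (inf_le_left.trans h2.le) (h2.pi.of_le inf_le_left) hS.pi (.inr hS.pi.solv)
  refine (hc.le_sup_of_comm_le (W := SS ψ) (commutator_le.2 fun s hs g hg => hg.2.2 s hs)).trans
    (sup_le_sup_left (fun d hd => mem_ZZ.2 fun n hn => ?_) _)
  have hx : IsConj (ψ t0) (n⁻¹ * ψ t0 * n) := isConj_iff.2 ⟨n⁻¹, by simp⟩
  have hE := conj_mem_N' hn (t_mem ψ)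
  obtain ⟨m, hm, e⟩ := H21.burnside_fusion Nat.prime_two h.syl h.cen (mem_top n⁻¹)
    (by rw [inv_inv]; exact h.S_cent.trans (C_le_C1 hE))
  obtain ⟨γ, hγ, s, hs, rfl⟩ := h1.mem_iff'.1 hm.2
  have e1 : n * γ ∈ C1(ψ t0) := mem_C1.2 (by
    calc _ = n * (γ * (s * ψ t0 * s⁻¹) * γ⁻¹) * γ := by rw [conj_eq_self_of_C1 (h.cen hs)]; group
      _ = n * (γ * s * ψ t0 * (γ * s)⁻¹) * γ := by group
      _ = _ := by rw [e]; group)
  have γN := h2.le hγ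
  have e2 : γ * ψ x0 * γ⁻¹ ∈ Γ ⊓ cmod S (SS ψ) := ⟨Γ.mul_mem (mul_mem hγ (h3 (mem_zpowers _))) (inv_mem hγ),
    mul_mem (mul_mem (h.N_le γN) h.x_cmod.1) (inv_mem (h.N_le γN)), fun s hs => by
      convert conj_mem_N (h.N_le γN) (h.x_cmod.2 _ (conj_mem_N' γN hs)) using 1; group⟩
  have e3 : γ⁻¹ * d * γ ∈ C1(ψ x0) := by
    have := C_le_C1 e2 hd.2
    rw [← cj_C1] at this
    exact H18.mem_cj.1 this
  obtain ⟨b, hb, e4⟩ := h.Y_dec (h.S_cent (conj_mem_N' γN hd.1))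
  have e5 : ψ b ∈ C(ψ.range) := by
    have := mem_C1.1 ((mul_mem_cancel_right e3).1 (C_le_C1 (show _ ∈ ψ.range from ⟨x0, rfl⟩) e4))
    obtain rfl | rfl := cent_xS b ⟨hb, h.inj (by simpa using this)⟩
    · simp
    · exact mem_C.2 (by rintro _ ⟨a, rfl⟩; exact comm_t ψ a)
  convert conj_mem_N (N_le_N_C (h.nml e1)) ((mul_mem_cancel_left e5).1 e4) using 1
  group

theorem Y_le : C(SS ψ) ≤ SS ψ ⊔ ZZ ψ := le_of_pElts fun p hp y hy hpe => by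
  by_cases e : p = 2
  · subst e
    obtain ⟨c, hc, e⟩ := sylow_le_cj Nat.prime_two (h.syl.of_le h.S_cent le_top) (piGrp_zpowers.2 hpe)
      (zpowers_le.2 hy)
    have := conj_mem_N' (norm_sup C_le_N (C_le_N.trans (norm_ZZ ψ)) hc) (h.S_le (e (conj_mem_cj (mem_zpowers y))))
    simpa [mul_assoc] using this
  · refine mem_sup_right (Ree.mem_of_sq_mem (PiNat.not_dvd hpe Nat.prime_two (Ne.symm e)) (mem_ZZ.2 fun n hn => ?_))
    have h1 := conj_mem_N (N_le_N_C hn) hy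
    obtain ⟨b, hb, e1⟩ := h.Y_dec h1
    have hb' : ψ b ∈ SS ψ := mem_SS.2 ⟨b, hb, rfl⟩
    convert mul_mem e1 e1 using 1
    calc _ = ψ b * ψ b * (n * y * n⁻¹) * (n * y * n⁻¹) := by rw [SS_sq hb']; group
      _ = _ := by rw [mul_assoc (ψ b) (ψ b)]; nth_rewrite 1 [h1 _ hb']; group

theorem C_le : C1(ψ t0) ≤ ψ.range ⊔ ZZ ψ := fun g hg => by
  obtain ⟨b, hb⟩ := h.inner hg
  exact (mul_mem_cancel_left (mem_sup_left (show _ ∈ ψ.range from ⟨b, rfl⟩))).1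
    (sup_le_sup_right (SS_le ψ) _ (h.Y_le (C_anti (SS_le ψ) hb)))

theorem eq_one {b : B} (hb : ψ b ∈ ZZ ψ) : b = 1 := by
  have k : ∀ c, b * c = c * b := fun c => h.inj (by simpa using (ZZ_le ψ hb _ ⟨c, rfl⟩).symm)
  refine (central_B b (k _) (k _) (k _)).resolve_right ?_
  rintro rfl
  obtain ⟨n, hn, e⟩ := h.conj_E (mem_SS.2 ⟨v0, inS_gen.2.1, rfl⟩) h.X1
  exact misc2.2.2.2.2.2.2.2.2.2.2.1 (h.inj (by simpa [e] using (mem_ZZ.1 hb n hn _ ⟨x0, rfl⟩).symm))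

theorem C_le_M : C1(ψ t0) ≤ N(ZZ ψ) := h.C_le.trans (sup_le (range_le_M ψ) le_N)

theorem conj_M (hx : IsConj (ψ t0) x) (hM : x ∈ N(ZZ ψ)) : ∃ m ∈ N(ZZ ψ), m * ψ t0 * m⁻¹ = x := by
  obtain ⟨c, hc, e⟩ := sylow_le_cj Nat.prime_two (h.syl.of_le (h.cen.trans h.C_le_M) le_top)
    (piElt_of_pow_eq_one Nat.prime_two ((pow_two _).trans (h.sq hx))).zpowers (zpowers_le.2 hM)
  have hx' := hx.trans (isConj_iff.2 ⟨c, rfl⟩)
  obtain ⟨n, hn, e'⟩ := h.conj_E (h.mem_E hx' (e (conj_mem_cj (mem_zpowers x)))) hx'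
  refine ⟨c⁻¹ * n, mul_mem (inv_mem hc) (norm_ZZ ψ hn), ?_⟩
  calc _ = c⁻¹ * (n * ψ t0 * n⁻¹) * c := by group
    _ = _ := by rw [e']; group

theorem mem_M (hx : IsConj (ψ t0) x) (hM : x ∈ N(ZZ ψ)) (hg : g * x * g⁻¹ ∈ N(ZZ ψ)) : g ∈ N(ZZ ψ) := by
  obtain ⟨m', hm', e⟩ := h.conj_M (hx.trans (isConj_iff.2 ⟨g, rfl⟩)) hg
  obtain ⟨m, hm, rfl⟩ := h.conj_M hx hM
  have : m'⁻¹ * g * m ∈ N(ZZ ψ) := h.C_le_M (mem_C1.2 (by
    calc _ = m'⁻¹ * (g * (m * ψ t0 * m⁻¹) * g⁻¹) * g * m := by group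
      _ = _ := by rw [← e]; group))
  simpa [mul_assoc] using mul_mem (mul_mem hm' this) (inv_mem hm)

theorem mem_M' (hx : IsConj (ψ t0) x) (hM : x ∈ N(ZZ ψ)) (hg : g ∈ C1(x)) : g ∈ N(ZZ ψ) :=
  h.mem_M hx hM (by rwa [conj_eq_self_of_C1 hg])

theorem X_cent (hx : IsConj (ψ t0) x) (hM : x ∈ N(ZZ ψ)) : x ∈ C(ZZ ψ) := by
  obtain ⟨m, hm, rfl⟩ := h.conj_M hx hM
  exact conj_mem_N (N_le_N_C hm) (cent_symm (ZZ_le ψ) ⟨t0, rfl⟩)

theorem q_inj : Function.Injective (qψ ψ) := (injective_iff_map_eq_one _).2 fun b hb =>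
  h.eq_one ((cs_eq_one_iff (range_le_M ψ ⟨b, rfl⟩)).1 (qψ_eq ψ b ▸ hb))

theorem q_cen : Ree.Cen (qψ ψ t0) ((qψ ψ).comp (MonoidHom.inr _ _)) where
  ord := by
    rw [orderOf_injective _ h.q_inj]; exact H9.orderOf_eq_two.2 ⟨rel_B.2.2.2.1, ne_B.1⟩
  inj := h.q_inj.comp fun a b e => congrArg Prod.snd e
  comm y := comm_t (qψ ψ) (1, y)
  ne y e := misc2.1 (congrArg Prod.fst (h.q_inj e)).symm
  cov q hq := by
    obtain ⟨g, hg, -, rfl⟩ := mem_mim.1 (quo_N (K := ZZ ψ) ▸ mem_top q)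
    have tM := range_le_M ψ ⟨t0, rfl⟩
    have hx : IsConj (ψ t0) (g * ψ t0 * g⁻¹) := isConj_iff.2 ⟨g, rfl⟩
    have xM := mul_mem (mul_mem hg tM) (inv_mem hg)
    have h1 : ψ t0 * (g * ψ t0 * g⁻¹) ∈ ZZ ψ := by
      rw [← cs_eq_one_iff (mul_mem tM xM), mfun_mul tM xM, mfun_conj hg tM, ← qψ_eq, hq, mul_inv_cancel_right,
        ← map_mul, rel_B.2.2.2.1, map_one]
    have t2 := h.sq (IsConj.refl _)
    have h2 : ψ t0 * (g * ψ t0 * g⁻¹) = 1 := by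
      have h3 := ZZ_le ψ h1 _ ⟨t0, rfl⟩
      have h4 : ψ t0 * (g * ψ t0 * g⁻¹) = g * ψ t0 * g⁻¹ * ψ t0 := mul_left_cancel (h3.trans (mul_assoc _ _ _))
      obtain ⟨b, hb⟩ := h.mem _ hx (mem_C1.2 h4.symm)
      rw [← hb, ← map_mul] at h1 ⊢
      rw [h.eq_one h1, map_one]
    have h3 : g ∈ C1(ψ t0) := mem_C1.2 (mul_inv_eq_iff_eq_mul.1 (mul_left_cancel (h2.trans t2.symm)))
    obtain ⟨_, ⟨b, rfl⟩, z, hz, rfl⟩ := (mem_sup_of_norm (range_le_M ψ)).1 (h.C_le h3)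
    rw [mfun_mul (range_le_M ψ ⟨b, rfl⟩) (le_N hz), cs_eq_one hz, mul_one, ← qψ_eq]
    exact ⟨b.2, (split_B b).imp (congrArg _) fun e => (congrArg _ e).trans (map_mul _ _ _)⟩

theorem q_iso : Nonempty (Coset (ZZ ψ) ≃* Cfsg.Spor.J1) := by
  have SM := h.cen.trans h.C_le_M
  have hP : Hall {2} (S ⫽ ZZ ψ) ⊤ := quo_N (K := ZZ ψ) ▸ (h.syl.of_le SM le_top).mim le_rfl
  refine Ree.iso_J1' h.q_cen (fun M hM hi => ?_) hP (qψ_eq ψ t0 ▸ mim_C1 (range_le_M ψ ⟨t0, rfl⟩) h.cen)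
  have k : ∀ s ∈ SS ψ, s ≠ 1 → (cs (ZZ ψ) s ∈ M ↔ cs (ZZ ψ) (ψ t0) ∈ M) := fun s hs s1 => by
    obtain ⟨n, hn, rfl⟩ := h.trans hs s1
    rw [mfun_conj (norm_ZZ ψ hn) (range_le_M ψ ⟨t0, rfl⟩)]
    exact ⟨fun e => by simpa [mul_assoc] using hM.conj_mem' _ e (cs (ZZ ψ) n), fun e => hM.conj_mem _ e _⟩
  have hx : qψ ψ x0 ∈ M := by
    have := mul_self_mem_of_index_two hi (qψ ψ x0⁻¹)
    rwa [← map_mul, show x0⁻¹ * x0⁻¹ = x0 by decide +kernel] at this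
  have hv : qψ ψ v0 ∈ M := by
    rw [gen_comm.2.1, map_commutatorElement, commutatorElement_def, mul_assoc, mul_assoc, ← mul_assoc (qψ ψ y0)]
    exact mul_mem hx (hM.conj_mem _ (inv_mem hx) _)
  have ht := (k _ (mem_SS.2 ⟨_, inS_gen.2.1, rfl⟩) (h.ne_one h.X1)).1 (qψ_eq ψ v0 ▸ hv)
  have hS : S ⫽ ZZ ψ ≤ M := by
    refine (mim_mono h.S_le).trans ((quo_sup_self (h.le.trans SM)).trans_le fun q hq => ?_)
    obtain ⟨s, hs, -, rfl⟩ := mem_mim.1 hq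
    by_cases e : s = 1
    · simp [e]
    · exact (k s hs e).2 ht
  exact (piNat_compl_iff Nat.prime_two).1 (hP.idx_of_le hS) (by rw [relIndex_top_right, hi])

theorem X_le {j : G} (hj : IsConj (ψ t0) j) : j ∈ N(ZZ ψ) := by
  by_contra jM
  set M := N(ZZ ψ) with hM
  have j2 := h.sq hj
  have ji := H9.inv_eq_of_mul_self j2
  have tM : ψ t0 ∈ M := range_le_M ψ ⟨t0, rfl⟩
  have t2 := h.sq (IsConj.refl _)
  have jN : zpowers j ≤ N(M ⊓ H18.cj j M) := zpowers_le.2 (mem_N_iff_cj.2 (by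
    rw [cj_inf, cj_cj, j2, H18.cj_one, inf_comm]))
  have iso : ∀ g ∈ (M ⊓ H18.cj j M) ⊔ zpowers j, Commute j (g * j * g⁻¹) → g * j * g⁻¹ = j := fun g hg hc => by
    by_contra ne
    obtain ⟨d, hd, i, hi, rfl⟩ := (mem_sup_of_norm' jN).1 hg
    have e : d * i * j * (d * i)⁻¹ = d * j * d⁻¹ := by
      obtain ⟨k, rfl⟩ := hi
      group
    rw [e] at hc ne
    refine jM (h.mem_M' (h.mul_X hj (hj.trans (isConj_iff.2 ⟨d, rfl⟩)) hc.eq fun e1 =>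
      ne (mul_left_cancel (e1.trans j2.symm))) ?_ (mem_C1.2 (by rw [mul_assoc j, ← hc.eq])))
    have := M.mul_mem (conj_mem_N (jN (mem_zpowers j)) hd).1 (M.inv_mem hd.1)
    rwa [ji, mul_assoc j, mul_assoc j] at this
  set D := (Cfsg.pPrimeCore 2 ((M ⊓ H18.cj j M) ⊔ zpowers j : Subgroup G)).map (Subgroup.subtype _)
  have hD : PiGrp {2}ᶜ D := by rw [show D = _ from pPrimeCore_map Nat.prime_two]; exact pcore_pi
  have tr : ∀ s ∈ M, IsConj (ψ t0) s → ∃ d ∈ D, d ∈ M ∧ d * ψ t0 * d⁻¹ = s := fun s hs hx => by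
    have hy := hx.trans (isConj_iff.2 ⟨j, rfl⟩)
    have ho : Odd (orderOf (ψ t0 * (j * s * j⁻¹))) := by
      by_contra he
      obtain ⟨z, -, h1, h2, h3⟩ := h.dih (IsConj.refl _) hy he
      exact jM (h.mem_M hx hs (h.mem_M' h1 (h.C_le_M (mem_C1_comm.1 h2)) h3))
    obtain ⟨k, hk⟩ := H9.conj_of_odd t2 (h.sq hy) ho
    have hc := (refl_conj t2 (h.sq hy) k).elim id hy.trans
    set c := (ψ t0 * (j * s * j⁻¹)) ^ k
    have hd : j * (c * ψ t0) * ψ t0 * (j * (c * ψ t0))⁻¹ = s := by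
      calc _ = j * (c * ψ t0 * c⁻¹) * j⁻¹ := by group
        _ = (j * j) * s * (j * j)⁻¹ := by rw [hk]; group
        _ = s := by rw [j2]; simp
    have hdM : j * (c * ψ t0) ∈ M := h.mem_M (IsConj.refl _) tM (hd ▸ hs)
    have hi : j⁻¹ * (j * (c * ψ t0)) * j = (j * (c * ψ t0))⁻¹ := by
      rw [mul_inv_rev j, H9.inv_eq_of_mul_self (h.sq hc), inv_mul_cancel_left, ji]
    have ho' : Odd (orderOf (j * (c * ψ t0))) := by
      by_contra he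
      obtain ⟨z, h0, h1, h2, -⟩ := h.dih hj hc he
      exact jM (h.mem_M' h1 (zpowers_le.2 hdM h0) h2)
    refine ⟨_, Ree.mem_of_sq_mem (Nat.two_dvd_ne_zero.2 (Nat.odd_iff.1 ho')) ?_, hdM, hd⟩
    convert inv_mem (H9.zstar_sub (mem_sup_right (mem_zpowers j)) (k := 1) ((pow_two _).trans j2) iso
      (mem_sup_left ⟨hdM, H18.mem_cj.2 (hi ▸ inv_mem hdM)⟩)) using 1
    rw [ji] at hi
    rw [commutatorElement_def, ji, hi, ← mul_inv_rev, inv_inv]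
  obtain ⟨e⟩ := h.q_iso
  have h1 : C1(qψ ψ t0).relIndex (D ⫽ ZZ ψ) = C1(qψ ψ t0).relIndex ⊤ := by
    rw [← ncard_conj, ← ncard_conj]
    congr 1
    ext y
    refine ⟨fun ⟨l, _, e⟩ => ⟨l, mem_top _, e⟩, ?_⟩
    rintro ⟨q, -, rfl⟩
    obtain ⟨m, hm, -, rfl⟩ := mem_mim.1 (quo_N (K := ZZ ψ) ▸ mem_top q)
    obtain ⟨d, h1, h2, h3⟩ := tr _ (mul_mem (mul_mem hm tM) (inv_mem hm)) (isConj_iff.2 ⟨m, rfl⟩)
    exact ⟨_, mfun_mem_mim h1, by rw [qψ_eq, ← mfun_conj h2 tM, h3, mfun_conj hm tM]⟩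
  rw [relIndex_eq_of_mul (n := 1463) le_top (by
    rw [card_top, Nat.card_congr e.toEquiv, J1.card_J1, Nat.card_congr h.q_cen.equiv.toEquiv]
    exact congrArg (· * 1463) card_B.symm)] at h1
  obtain ⟨φ, st, hr, -⟩ := J1.exists_st
  have h2 := card_map_of_injective (K := D ⫽ ZZ ψ) (f := e.toMonoidHom) e.injective
  exact st.no_odd hr J1.card_J1 (h2 ▸ Nat.odd_iff.2 (Nat.two_dvd_ne_zero.1
    ((piNat_compl_iff Nat.prime_two).1 hD.mim))) (h2 ▸ h1 ▸ relIndex_dvd)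

theorem iso : Nonempty (normalClosure {ψ t0} ≃* Cfsg.Spor.J1) := by
  obtain ⟨e⟩ := h.q_iso
  have hl : ∀ K : Subgroup G, (∀ x, IsConj (ψ t0) x → x ∈ K) → normalClosure {ψ t0} ≤ K := fun K hK =>
    (closure_le _).2 fun y hy => by
      obtain ⟨_, rfl, hy⟩ := Group.mem_conjugatesOfSet_iff.1 hy
      exact hK y hy
  have hX : ∀ K : Subgroup G, K.Normal → ∀ x ∈ K, IsConj (ψ t0) x → ∀ y, IsConj (ψ t0) y → y ∈ K :=
    fun K hK x h1 h2 y h3 => by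
      obtain ⟨c, rfl⟩ := isConj_iff.1 (h2.symm.trans h3)
      exact hK.conj_mem _ h1 c
  set J := normalClosure {ψ t0}
  have hJ : J.Normal := inferInstance
  have JX := hX J hJ _ (subset_normalClosure rfl) (IsConj.refl _)
  have JM := hl _ fun x => h.X_le
  let σ := (coset (ZZ ψ)).comp (inclusion JM)
  have hσ : ∀ x : J, σ x = cs (ZZ ψ) x := fun x => (mfun_of_mem (f := coset (ZZ ψ)) (JM x.2)).symm
  have hs : Function.Surjective σ := by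
    have := e.isSimpleGroup
    have h1 : (J ⫽ ZZ ψ).Normal := norm_top_iff.1 (quo_N (K := ZZ ψ) ▸ mim_norm norm_of_normal)
    rcases h1.eq_bot_or_eq_top with e1 | e1
    · exact absurd (h.eq_one ((quo_eq_bot_iff JM).1 e1 (JX _ (IsConj.refl _)))) ne_B.1
    · intro q
      obtain ⟨x, hx, -, rfl⟩ := mem_mim.1 (e1 ▸ mem_top q)
      exact ⟨⟨x, hx⟩, hσ _⟩
  have hx : ψ x0 ∈ J := by
    have hw := JX _ (h.inv_X rel_B.2.2.1 misc2.2.2.2.2.2.1)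
    rw [gen_comm.1, map_commutatorElement, commutatorElement_def, mul_assoc, mul_assoc, ← mul_assoc (ψ x0)]
    exact mul_mem hw (hJ.conj_mem _ (inv_mem hw) _)
  have hp : J ≤ ⁅J, J⁆ := hl _ (hX _ inferInstance _ (by
    rw [gen_comm.2.1, map_commutatorElement]
    exact commutator_mem_commutator hx (JX _ (h.conj_ψ h.X1 x0))) h.X1)
  have hk := stem_eq_bot (σ := e.toMonoidHom.comp σ) (e.surjective.comp hs) (fun z hz => mem_center_iff.2 fun y =>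
    Subtype.ext (hl C(ZZ ψ) (fun x hx => h.X_cent hx (h.X_le hx)) y.2 _ ((cs_eq_one_iff (JM z.2)).1
      (hσ z ▸ e.map_eq_one_iff.1 hz))).symm) fun z _ => by
      obtain ⟨y, hy, e⟩ := (J.map_subtype_commutator ▸ hp z.2 : (z : G) ∈ (_root_.commutator J).map J.subtype)
      exact Subtype.ext e ▸ hy
  exact ⟨MulEquiv.ofBijective _ ⟨(MonoidHom.ker_eq_bot_iff _).1 hk, e.surjective.comp hs⟩⟩

end Wk

theorem exists_wk [Finite G] {t : G} (ht : orderOf t = 2) {S : Subgroup G} (hS : Hall {2} S ⊤) (hc : S ≤ C1(t))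
    (e : closure {x : G | ∃ g : G, x = g * t * g⁻¹ ∧ x * t = t * x} ≃* B) : ∃ ψ, Wk S ψ ∧ ψ t0 = t := by
  set W := closure {x : G | ∃ g : G, x = g * t * g⁻¹ ∧ x * t = t * x} with hW
  have WC : W ≤ C1(t) := (closure_le _).2 fun x ⟨_, _, h⟩ => mem_C1.2 h
  have tW : t ∈ W := subset_closure ⟨1, by simp, rfl⟩
  have hn : C1(t) ≤ N(W) := norm_closure (by
    rintro c hc _ ⟨g, rfl, h⟩
    exact ⟨c * g, by group, mem_C1.1 (mul_mem (mul_mem hc (mem_C1.2 h)) (inv_mem hc))⟩)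
  let φ : B →* G := W.subtype.comp e.symm.toMonoidHom
  have hi : Function.Injective φ := (subtype_injective _).comp e.symm.injective
  have hr : φ.range = W := by
    rw [MonoidHom.range_comp, MonoidHom.range_eq_top.2 e.symm.surjective, ← MonoidHom.range_eq_map, range_subtype]
  have h0 : φ t0 = t := by
    obtain ⟨b, hb⟩ := hr.ge tW
    have k : ∀ c, b * c = c * b := fun c => hi (by
      rw [map_mul, map_mul, hb]; exact (mem_C1.1 (WC (hr.le ⟨c, rfl⟩))).symm)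
    obtain rfl | rfl := central_B b (k _) (k _) (k _)
    · rw [← hb, map_one] at ht; simp at ht
    · exact hb
  obtain ⟨_, ⟨c, rfl⟩, e1⟩ := sylow_conj Nat.prime_two (hall_SS hi) (hr ▸ (hS.of_le hc le_top).inf_nml ⟨WC, hn⟩)
  let ψ := φ.comp (MulAut.conj c).toMonoidHom
  have h1 : ψ t0 = t := by simp [ψ, t0_comm c, h0]
  have h2 : ψ.range = W := by
    rw [MonoidHom.range_comp, MonoidHom.range_eq_top.2 (MulAut.conj c).surjective, ← MonoidHom.range_eq_map, hr]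
  refine ⟨ψ, ⟨hi.comp (MulAut.conj c).injective, hS, h1 ▸ hc, fun s hs => ?_, h1 ▸ h2 ▸ hn, ?_, fun x hx hc => ?_⟩, h1⟩
  · obtain ⟨b, hb, rfl⟩ := mem_SS.1 hs
    exact (e1.ge (by simpa [ψ] using conj_mem_cj (mem_SS.2 ⟨b, hb, rfl⟩))).1
  · by_contra hx
    push Not at hx
    have : W ≤ C1(ψ x0) ⊓ C1(ψ v0) ⊓ C1(ψ w0) := (closure_le _).2 (by
      rintro x ⟨g, hg, hx'⟩
      obtain ⟨b, rfl⟩ := h2.ge (subset_closure ⟨g, hg, hx'⟩)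
      obtain rfl : b = t0 := by
        by_contra hb
        exact hx b hb (h1 ▸ isConj_iff.2 ⟨g, hg.symm⟩)
      exact ⟨⟨mem_C1.2 (comm_t ψ _).symm, mem_C1.2 (comm_t ψ _).symm⟩, mem_C1.2 (comm_t ψ _).symm⟩)
    exact misc2.2.2.2.2.2.2.2.2.2.2.1 (hi.comp (MulAut.conj c).injective
      (show ψ _ = ψ _ by rw [map_mul, map_mul]; exact mem_C1.1 (this (h2.le ⟨v0, rfl⟩)).1.1))
  · obtain ⟨g, rfl⟩ := isConj_iff.1 hx
    rw [h1] at hc ⊢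
    exact h2.ge (subset_closure ⟨g, rfl, mem_C1.1 hc⟩)

end H6.J
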