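import Cfsg.Agent.H13.Km0

/-! Frobenius groups of automorphisms with fixed-point-free kernel: the case without invariant normal subgroups
(`dv`, `pS`). -/
set_option autoImplicit false
namespace H6.KmS
open Cfsg H18 H1 Subgroup H13.Km
universe u

theorem dv {G : Type*} [Group G] [Finite G] {s : ℕ} (hs : s.Prime) {P X : Subgroup G} (hP : PiGrp {s} P)
    (hn : P ≤ N(X)) (hd : s ∣ Nat.card X) : s ∣ Nat.card ↥(X ⊓ C(P)) := by
  have := Fact.mk hs
  obtain ⟨S, hS, l⟩ := exists_sylow_le hs hP (le_sup_right : P ≤ X ⊔ P)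
  have h1 := hS.inf_nml (nml_sup_left hn)
  have h2 := inf_centralizer_ne_bot_of_isPGroup hP.isPGroup h1.pi.isPGroup (norm_inf (le_norm l) hn)
    (h1.ne_bot_p hs hd)
  exact (h1.pi.inf_left.dvd_card h2).trans (card_dvd (inf_le_inf_right _ inf_le_right))

theorem pS : PS.{u} := by
  intro G _ _ K F H c hmin hsub hsim
  by_contra nK
  have one : ∀ r, r.Prime → r ≠ 2 → ∀ R ≤ K, PiGrp {r} R → F ≤ N(R) → H ≤ N(R) → R = ⊥ := by
    intro r hr r2 R₀ l₀ p₀ f₀ h₀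
    by_contra n₀
    have := Fact.mk hr
    obtain ⟨R, le, ⟨l, p, f, h⟩, mx⟩ := exists_maximal_sub (A := R₀)
      (fun R => R ≤ K ∧ PiGrp {r} R ∧ F ≤ N(R) ∧ H ≤ N(R)) ⟨l₀, p₀, f₀, h₀⟩
    have n : R ≠ ⊥ := fun e => n₀ (eq_bot_iff.2 (e ▸ le))
    have loc : ∀ W ≤ R, W ≠ ⊥ → F ≤ N(W) → H ≤ N(W) → Nil (K ⊓ N(W)) := fun W w1 w2 w3 w4 =>
      hsub _ (inf_lt_left.2 fun k => nK (((hsim W ⟨w1.trans l, k⟩ w3 w4).resolve_left w2 ▸ p.of_le w1 :
        PiGrp {r} K).nil)) (norm_inf c.nF (norm_N w3)) (norm_inf c.nH (norm_N w4))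
    have nL := loc R le_rfl n f h
    have e : O[{r}](K ⊓ N(R)) = R := mx _ ⟨pcore_le.trans inf_le_left, pcore_pi,
      norm_pcore (norm_inf c.nF (norm_N f)), norm_pcore (norm_inf c.nH (norm_N h))⟩
      (nL.le_pcore (le_inf l le_N) p)
    have hR : Hall {r} R K := sylow_of_max hr l p fun Q q1 q2 q3 => by
      by_contra k
      have lt := Nil.lt_norm q1.nil (lt_of_le_not_ge q2 k)
      exact lt.not_ge ((nL.le_pcore (inf_le_inf_right _ q3) q1.inf_left).trans e.le)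
    obtain ⟨h3, h4, h5⟩ := H27.isConjugacyFunctor_induced (G := G) (p := r) H27.isCharPFunctor_kInfLower
      R p.isPGroup
    set W := inducedFunctor kInfLower R
    have nW : ∀ A, A ≤ N(R) → A ≤ N(W) := fun A hA a ha => mem_N_iff_cj.2 (by
      rw [cj_def, ← h5 a, ← cj_def, cj_eq_self (hA ha)])
    have := loc W h3 (h4 n) (nW F f) (nW H h)
    have h6 := (hasNormalPComplement_iff hr).1 (H23.pnil_of_kinf hr r2 hR H3.hasNormalPComplement_of_isNilpotent)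
    rcases hsim _ (pcore_nml (π := {r}ᶜ)) (norm_pcore c.nF) (norm_pcore c.nH) with k | k
    · rw [k] at h6
      exact nK (show PiGrp {r} K from h6.compl_of_eq_bot.of_compl_compl).nil
    · exact (piNat_compl_iff hr).1 (k ▸ pcore_pi : PiGrp {r}ᶜ K) ((p.dvd_card n).trans (card_dvd l))
  have two : ∀ X < K, F ≤ N(X) → H ≤ N(X) → PiGrp {2} X := fun X x1 x2 x3 r hr hd => by
    by_contra r2
    exact (hsub X x1 x2 x3).pcore_hall.ne_bot_p hr hd
      (one r hr r2 _ (pcore_le.trans x1.le) pcore_pi (norm_pcore x2) (norm_pcore x3))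
  have cop : (Nat.card F).Coprime (Nat.card K) := Nat.coprime_of_dvd fun s hs d1 d2 => by
    have inv : ∀ π, F ≤ N(K ⊓ C(O[π](F))) ∧ H ≤ N(K ⊓ C(O[π](F))) := fun π =>
      ⟨norm_inf c.nF (norm_C pcore_nml.norm), norm_inf c.nH (norm_C (norm_pcore c.hn))⟩
    have x0 := hmin O[{s}ᶜ](F) (lt_of_le_of_ne pcore_le fun e =>
      (piNat_compl_iff hs).1 (e ▸ pcore_pi : PiGrp {s}ᶜ F) d1) (norm_pcore c.hn)
    have b : K ⊓ C(O[{s}ᶜ](F)) ⊓ C(O[{s}](F)) = ⊥ := by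
      rw [inf_assoc, inf_comm C(O[{s}ᶜ](F)), ← C_sup, c.nil.pcore_sup, c.cf]
    have nd : ¬ s ∣ Nat.card ↥(K ⊓ C(O[{s}ᶜ](F))) := fun d => by
      have := dv hs pcore_pi (pcore_le.trans (inv _).1) d
      rw [b, card_bot, Nat.dvd_one] at this
      exact hs.ne_one this
    have lt : K ⊓ C(O[{s}ᶜ](F)) < K := lt_of_le_of_ne inf_le_left fun e => nd (e.symm ▸ d2)
    by_cases s2 : s = 2
    · exact nd (s2 ▸ (two _ lt (inv _).1 (inv _).2).dvd_card x0)
    · have d := dv hs (pcore_pi (H := F)) (pcore_le.trans c.nF) d2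
      have k : K ≤ C(O[{s}](F)) := by
        by_contra k
        exact s2 (two _ (inf_lt_left.2 k) (inv _).1 (inv _).2 s hs d)
      exact x0 (by rw [← b, inf_eq_left.2 (inf_le_left.trans k)])
  obtain ⟨r, hr, d, r2⟩ := exists_prime_not_mem (fun k : PiGrp {2} K => nK k.nil)
  have := Fact.mk hr
  have cp : Cop F K := ⟨c.nF, cop, Or.inl c.nil.solv⟩
  obtain ⟨R, hR, f⟩ := cp.exists_sylow hr
  refine hR.ne_bot_p hr d (one r hr r2 R hR.le hR.pi f fun h hh => mem_N_iff_cj.2 ?_)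
  obtain ⟨a, ha, e⟩ := invariant_isSylowIn_conj cp.norm cp.cop cp.solv ((hall_iff_isSylowIn hr).1 hR)
    ((hall_iff_isSylowIn hr).1 (hR.cj_N (c.nH hh))) f (by
      rw [← cj_eq_self (c.hn hh)]; exact cj_norm_iff.2 f)
  rw [eq_one_of_eq_bot c.cf ha, map_one, one_smul] at e
  exact e.symm

end H6.KmS
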