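import Mathlib
/-! A Gram-matrix search `srch` (for S3702) over the possible rows of nine integral columns of a character table. -/
set_option autoImplicit false
open Finset
namespace H6
namespace N9

def fN {β : Type} (n : ℕ) (k : ℕ → β) : β := match n with | 0 => k 0 | m + 1 => k (m + 1)
def fZ {β : Type} (z : ℤ) (k : ℤ → β) : β :=
  match z with | .ofNat n => fN n fun m => k (.ofNat m) | .negSucc n => fN n fun m => k (.negSucc m)
def fL {α β : Type} (f : α → (α → β) → β) : List α → (List α → β) → β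
  | [], k => k []
  | x :: l, k => f x fun y => fL f l fun l' => k (y :: l')

theorem fN_eq {β : Type} (n : ℕ) (k : ℕ → β) : fN n k = k n := by cases n <;> rfl
theorem fZ_eq {β : Type} (z : ℤ) (k : ℤ → β) : fZ z k = k z := by cases z <;> simp only [fZ, fN_eq]
theorem fL_eq {α β : Type} {f : α → (α → β) → β} (h : ∀ x k, f x k = k x) (l : List α) (k : List α → β) :
    fL f l k = k l := by
  induction l generalizing k with
  | nil => rfl
  | cons x l ih => rw [fL, h, ih]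

def gt (M : List (List ℤ)) (a b : ℕ) : ℤ := (M.getD a []).getD b 0
def ent (M : List (List ℤ)) (r : List ℤ) (a b : ℕ) : ℤ := gt M a b - r.getD a 0 * r.getD b 0
def R9 : List ℕ := [0, 1, 2, 3, 4, 5, 6, 7, 8]
def upd (M : List (List ℤ)) (r : List ℤ) : List (List ℤ) := R9.map fun a => R9.map fun b => ent M r a b
def bad (M : List (List ℤ)) (r : List ℤ) : Bool := (R9.any fun a => ent M r a a < 0) ||
  R9.any fun a => (R9.take a).any fun b => ent M r a a * ent M r b b < ent M r a b * ent M r a b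
def bd (c : ℕ) : ℕ := if c = 3 then 2 else if c ≤ 2 then 1 else 0
def srch (T : List (List ℤ × ℕ)) : ℕ → List (List ℤ) → List ℕ → Bool
  | 0, _, _ => false
  | n + 1, M, acc => match R9.find? fun a => gt M a a != 0 with
    | none => acc.all fun c => c == 0 || acc.count c ≤ bd c
    | some a => T.all fun p => p.1.getD a 0 == 0 || bad M p.1 || fL (fL fZ) (upd M p.1) fun M' => srch T n M' (p.2 :: acc)

theorem mem_R9 {a : ℕ} : a ∈ R9 ↔ a < 9 := by rw [show R9 = List.range 9 by decide, List.mem_range]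

theorem gt_upd (M : List (List ℤ)) (r : List ℤ) {a b : ℕ} (ha : a < 9) (hb : b < 9) : gt (upd M r) a b = ent M r a b := by
  interval_cases a <;> interval_cases b <;> rfl

theorem srch_sound {I : Type*} {T : List (List ℤ × ℕ)} (ρ : I → List ℤ × ℕ) (hT : ∀ i, ρ i ∈ T)
    (z : ∀ p ∈ T, (∀ a < 9, p.1.getD a 0 = 0) → p.2 = 0) : ∀ n M acc (s : Finset I),
    (∀ a < 9, ∀ b < 9, gt M a b = ∑ i ∈ s, (ρ i).1.getD a 0 * (ρ i).1.getD b 0) → srch T n M acc = true →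
    ∀ c ≠ 0, acc.count c + (s.filter fun i => (ρ i).2 = c).card ≤ bd c
  | 0, _, _, _, _, h => by simp [srch] at h
  | n + 1, M, acc, s, hM, h => by
    classical
    intro c c0
    rw [srch] at h
    split at h
    · rename_i e
      have : s.filter (fun i => (ρ i).2 = c) = ∅ := filter_eq_empty_iff.2 fun i hi k => c0 (k ▸ z _ (hT i) fun a ha => by
        have := List.find?_eq_none.1 e a (mem_R9.2 ha)
        rw [hM a ha a ha, bne_iff_ne, not_ne_iff, sum_eq_zero_iff_of_nonneg fun _ _ => mul_self_nonneg _] at this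
        exact mul_self_eq_zero.1 (this i hi))
      rw [this, card_empty, add_zero]
      by_cases k : c ∈ acc
      · simpa [c0] using List.all_eq_true.1 h c k
      · rw [List.count_eq_zero.2 k]; exact Nat.zero_le _
    · rename_i a e
      have ha := mem_R9.1 (List.mem_of_find?_eq_some e)
      have := List.find?_some e
      rw [hM a ha a ha, bne_iff_ne] at this
      obtain ⟨i, hi, k⟩ := exists_ne_zero_of_sum_ne_zero this
      have hE : ∀ a < 9, ∀ b < 9, ent M (ρ i).1 a b = ∑ j ∈ s.erase i, (ρ j).1.getD a 0 * (ρ j).1.getD b 0 :=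
        fun a ha b hb => by rw [ent, hM a ha b hb, ← add_sum_erase s _ hi, add_sub_cancel_left]
      have := List.all_eq_true.1 h _ (hT i)
      simp only [Bool.or_eq_true, beq_iff_eq, fL_eq (fL_eq fZ_eq)] at this
      rcases this with (k' | k') | k'
      · exact (k (by rw [k', mul_zero])).elim
      · simp only [bad, Bool.or_eq_true, List.any_eq_true, decide_eq_true_eq] at k'
        rcases k' with ⟨a, ha, k'⟩ | ⟨a, ha, b, hb, k'⟩
        · rw [hE a (mem_R9.1 ha) a (mem_R9.1 ha)] at k'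
          exact absurd (sum_nonneg fun _ _ => mul_self_nonneg _) k'.not_ge
        · have ha := mem_R9.1 ha
          have hb := mem_R9.1 (List.mem_of_mem_take hb)
          rw [hE a ha a ha, hE b hb b hb, hE a ha b hb] at k'
          simp only [← sq] at k'
          exact absurd (sum_mul_sq_le_sq_mul_sq _ _ _) k'.not_ge
      · have := srch_sound ρ hT z n _ _ (s.erase i) (fun a ha b hb => by rw [gt_upd _ _ ha hb, hE a ha b hb]) k' c c0
        rw [List.count_cons, ← insert_erase hi, filter_insert] at *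
        split_ifs at * with k1 k2 k2 <;> simp_all [card_insert_of_notMem] <;> omega

def W : Fin 9 → Fin 9 → ℤ := ![![-1, -4, -4, 9, 0, 18, 0, 0, 0], ![-1, -4, -4, 9, 0, -18, 0, 0, 0], ![-1, -1, -1, 0, 0, 0, 0, 0, 3], ![-1, -1, -1,
  0, 0, 0, 0, 3, 0], ![-1, -4, -4, -9, -9, 0, 0, 0, 0], ![-1, -4, -4, -9, 9, 0, 0, 0, 0], ![-1, -1, -1, 0, 0, 0, 0,
  -3, -3], ![-2, -5, -2, 0, 0, 0, -9, 0, 0], ![-2, -5, -2, 0, 0, 0, 9, 0, 0]]
def T : List (List ℤ × ℕ) := [([0, 0, 0, 0, 0, 0, 0, 0, 0], 0), ([0, 0, 0, 0, -36, 36, 0, 0, 0], 0), ([0, 0, 0, 0, 0, 0, 0, -18, 18], 0), ([0, 0,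
  0, 0, 0, 0, 0, 0, -18], 0), ([0, 0, 0, 0, 0, 0, 0, -18, 0], 0), ([-36, -36, -9, -9, -36, -36, -9, -18, -36], 4),
  ([-36, -36, -9, -9, -36, -36, -9, -36, -18], 4), ([-36, -36, -9, -9, -36, -36, -9, -36, -36], 4), ([36, 36, 9, 9,
  36, 0, 0, 18, 18], 4), ([36, 36, 9, 9, 0, 36, 0, 18, 18], 4), ([0, 0, 0, 0, 0, -36, -9, 0, 0], 0), ([0, 0, 0, 0,
  -36, 0, -9, 0, 0], 0), ([0, 0, 0, 0, 0, -36, -9, 0, -18], 1), ([0, 0, 0, 0, -36, 0, -9, 0, -18], 1), ([0, 0, 0, 0,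
  0, -36, -9, -18, 0], 1), ([0, 0, 0, 0, -36, 0, -9, -18, 0], 1), ([0, 0, 0, 0, 0, -36, -9, -18, -18], 0), ([0, 0, 0,
  0, -36, 0, -9, -18, -18], 0), ([0, 0, 0, 0, 36, 36, 9, 18, 18], 0), ([36, 36, 0, 0, 0, 0, 9, 18, 18], 0), ([0, 0, 0,
  0, 36, 36, 9, 18, 0], 0), ([36, 36, 0, 0, 0, 0, 9, 18, 0], 0), ([0, 0, 0, 0, 36, 36, 9, 0, 18], 0), ([36, 36, 0, 0,
  0, 0, 9, 0, 18], 0), ([-36, -36, -9, -9, 0, 0, 0, -18, -18], 2), ([0, 0, -9, -9, -36, -36, 0, -18, -18], 2), ([0, 0,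
  0, 0, 36, 0, 0, 18, 0], 0), ([0, 0, 0, 0, 0, 36, 0, 18, 0], 0), ([0, 0, 0, 0, 36, 0, 0, 0, 18], 0), ([0, 0, 0, 0, 0,
  36, 0, 0, 18], 0), ([0, 0, 0, 0, 36, 0, 0, 0, 0], 0), ([0, 0, 0, 0, 0, 36, 0, 0, 0], 0), ([0, 36, 0, 0, 0, 0, 0, 0,
  0], 0), ([36, 0, 0, 0, 0, 0, 0, 0, 0], 0), ([-36, -36, -9, -9, 0, -36, -9, -18, -18], 4), ([-36, -36, -9, -9, -36,
  0, -9, -18, -18], 4), ([-36, -36, -9, -9, 0, -36, -9, -18, -36], 3), ([-36, -36, -9, -9, -36, 0, -9, -18, -36], 3),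
  ([-36, -36, -9, -9, 0, -36, -9, -36, -18], 3), ([-36, -36, -9, -9, -36, 0, -9, -36, -18], 3), ([0, 0, 0, -9, 0, 0,
  0, 0, 0], 0), ([0, 0, -9, 0, 0, 0, 0, 0, 0], 0), ([0, 0, 0, 0, 0, 0, -9, 0, 0], 0), ([0, 0, 0, -9, 0, 0, 0, 0, -18],
  0), ([0, 0, -9, 0, 0, 0, 0, 0, -18], 0), ([0, 0, 0, 0, 0, 0, -9, 0, -18], 0), ([0, 0, 0, -9, 0, 0, 0, -18, 0], 0),
  ([0, 0, -9, 0, 0, 0, 0, -18, 0], 0), ([0, 0, 0, 0, 0, 0, -9, -18, 0], 0), ([0, 0, 0, 0, 0, 0, -9, -18, -18], 4),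
  ([-36, -36, -9, -9, -36, -36, -18, -36, -36], 4), ([0, 0, -9, -9, 0, -36, 0, 0, -18], 4), ([0, 0, -9, -9, -36, 0, 0,
  0, -18], 4), ([0, 0, -9, -9, 0, -36, 0, -18, 0], 4), ([0, 0, -9, -9, -36, 0, 0, -18, 0], 4), ([0, 0, -9, -9, 0, -36,
  0, -18, -18], 4), ([0, 0, -9, -9, -36, 0, 0, -18, -18], 4), ([-36, -36, -9, -9, 0, 0, -9, -18, -18], 4), ([0, 0, -9,
  -9, -36, -36, -9, -18, -18], 4)]
def M0 : List (List ℤ) := [[3888, 2592, 648, 648, 1296, 1296, 648, 1944, 1944], [2592, 3888, 648, 648, 1296, 1296, 648, 1944, 1944], [648, 648,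
  324, 243, 648, 648, 162, 648, 648], [648, 648, 243, 324, 648, 648, 162, 648, 648], [1296, 1296, 648, 648, 3888,
  1296, 324, 1296, 1944], [1296, 1296, 648, 648, 1296, 5184, 648, 1944, 1944], [648, 648, 162, 162, 324, 648, 324,
  486, 648], [1944, 1944, 648, 648, 1296, 1944, 486, 2268, 1620], [1944, 1944, 648, 648, 1944, 1944, 648, 1620, 2592]]

theorem srch_ok : srch T 15 M0 [] = true := by decide +kernel

end N9
end H6
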