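import Cfsg.Agent.H6.N9a
/-! The rows of the nine columns and the degree equation for the recognition of `3³:S₄` (`N9.main`). -/
set_option autoImplicit false
open Finset
namespace H6
namespace N9

def F27 (a b c : ℤ) : ℤ := 4 * (a * a * b + a * a * c + a * b * b + b * b * c + a * c * c + b * c * c) + 3 * (a * b * c)
def tag (a b c : ℤ) : ℕ := if F27 a b c = 0 then 0 else if a = b ∧ b = c then a.natAbs else 4
def rv (y : Fin 9 → ℤ) : List ℤ := List.ofFn fun a => ∑ k, W a k * y k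
def L21 : List ℤ := [-10, -9, -8, -7, -6, -5, -4, -3, -2, -1, 0, 1, 2, 3, 4, 5, 6, 7, 8, 9, 10]
def nr : Fin 9 → ℤ := ![108, 54, 81, 12, 24, 2, 6, 9, 9]

theorem rows : ∀ a ∈ L21, ∀ b ∈ L21, 6 * (a * a) + 12 * (b * b) < 648 → ∀ c ∈ L21, 9 ∣ a + 4 * b + 4 * c →
    9 ∣ 2 * a + 5 * b + 2 * c → 6 * (a * a) + 12 * (b * b) + 8 * (c * c) < 648 → ∀ g ∈ L21, 2 ∣ b + g →
    6 * (a * a) + 12 * (b * b) + 8 * (c * c) + 108 * (g * g) < 648 → ∀ h ∈ L21, 3 ∣ c - h →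
    6 * (a * a) + 12 * (b * b) + 8 * (c * c) + 108 * (g * g) + 72 * (h * h) < 648 → ∀ k ∈ L21, 3 ∣ c - k →
    6 * (a * a) + 12 * (b * b) + 8 * (c * c) + 108 * (g * g) + 72 * (h * h) + 72 * (k * k) < 648 → ∀ d ∈ L21,
    6 * (a * a) + 12 * (b * b) + 8 * (c * c) + 108 * (g * g) + 72 * (h * h) + 72 * (k * k) + 54 * (d * d) < 648 →
    ∀ e ∈ L21, 4 ∣ a + d + e → 4 ∣ a + d - e → ∀ f ∈ L21, 4 ∣ d - a + 2 * f →
    6 * (a * a) + 12 * (b * b) + 8 * (c * c) + 108 * (g * g) + 72 * (h * h) + 72 * (k * k) + 54 * (d * d) +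
      27 * (e * e) + 324 * (f * f) < 648 →
    (rv ![a, b, c, d, e, f, g, h, k], tag a b c) ∈ T ∨ (rv ![-a, -b, -c, -d, -e, -f, -g, -h, -k], tag a b c) ∈ T := by
  decide +kernel

theorem mem_L21 {x : ℤ} (h : 6 * (x * x) < 648) : x ∈ L21 := by
  have : -11 < x := by nlinarith
  have : x < 11 := by nlinarith
  interval_cases x <;> decide

def Ad (g : ℕ) (c x : ℤ) : Prop := x = 0 ∨ (x % 27 = c ∧ (0 < x ∨ x ≤ -26 * c) ∧ x ∣ 648 * g ∧ x * x ≤ 648 * g)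
instance instDecAd (g : ℕ) (c x : ℤ) : Decidable (Ad g c x) := by unfold Ad; infer_instance
def cand (g : ℕ) (c : ℤ) : List ℤ := 0 :: ((List.range 27).map fun k : ℕ => 27 * (k - 13 : ℤ) + c).filter (Ad g c)

theorem nosol : ∀ g ∈ [28, 55, 82, 109, 136, 163, 190], ∀ s ∈ cand g 1, ∀ p ∈ cand g 2, ∀ u ∈ cand g 3, ∀ v ∈ cand g 3,
    1 + (1 / s + 8 / p + (27 / u + 27 / v)) ≠ (24 : ℚ) / g := by decide +kernel

theorem Ad.le {g : ℕ} {c x : ℤ} (h : Ad g c x) (c0 : 0 < c) : -(c : ℚ) ^ 2 / 26 ≤ c ^ 3 / x := by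
  have c1 : (0 : ℚ) < c := by exact_mod_cast c0
  have n : -(c : ℚ) ^ 2 / 26 ≤ 0 := div_nonpos_of_nonpos_of_nonneg (neg_nonpos.2 (sq_nonneg _)) (by norm_num)
  rcases h with rfl | ⟨-, k | k, -⟩
  · simpa using n
  · exact n.trans (by positivity)
  · have k : (x : ℚ) ≤ -26 * c := by exact_mod_cast k
    rw [le_div_iff_of_neg (by linarith)]
    nlinarith [mul_le_mul_of_nonneg_left k (sq_nonneg (c : ℚ))]

theorem Ad.mem {g : ℕ} {c x : ℤ} (h : Ad g c x) (hg : g ≤ 190) (c0 : 0 < c) (c3 : c ≤ 3) : x ∈ cand g c := by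
  rcases id h with rfl | ⟨k, -, -, k'⟩
  · exact List.mem_cons_self
  have : -351 < x := by nlinarith
  have : x < 351 := by nlinarith
  exact List.mem_cons_of_mem _ (List.mem_filter.2 ⟨List.mem_map.2 ⟨(x / 27 + 13).toNat, List.mem_range.2 (by omega),
    by omega⟩, decide_eq_true h⟩)

theorem fin {g : ℕ} {s p u v : ℤ} (hs : Ad g 1 s) (hp : Ad g 2 p) (hu : Ad g 3 u) (hv : Ad g 3 v) (hg : g % 27 = 1)
    (e : 1 + (1 / s + 8 / p + (27 / u + 27 / v)) = (24 : ℚ) / g) : g = 1 := by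
  have a1 := hs.le (by norm_num)
  have a2 := hp.le (by norm_num)
  have a3 := hu.le (by norm_num)
  have a4 := hv.le (by norm_num)
  have g0 : (0 : ℚ) < g := by exact_mod_cast (by omega : 0 < g)
  have : (3 : ℚ) / 26 ≤ 24 / g := by rw [← e]; norm_num at a1 a2 a3 a4 ⊢; linarith
  rw [div_le_div_iff₀ (by norm_num) g0] at this
  have : 3 * g ≤ 24 * 26 := by exact_mod_cast this
  by_contra g1
  exact nosol g (by simp; omega) s (hs.mem (by omega) (by norm_num) (by norm_num)) p (hp.mem (by omega) (by norm_num)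
    (by norm_num)) u (hu.mem (by omega) (by norm_num) (by norm_num)) v (hv.mem (by omega) (by norm_num) (by norm_num)) e

theorem peel {I : Type*} {g : ℕ} {c : ℤ} {k : ℚ} {φ : I → ℚ} {P : I → Prop} (h : ∀ i, P i → ∃ x, Ad g c x ∧ φ i = k / x)
    {n : ℕ} {A : Finset I} (hA : ∀ i ∈ A, P i) (l : A.card ≤ n + 1) :
    ∃ x B, Ad g c x ∧ (∀ i ∈ B, P i) ∧ B.card ≤ n ∧ ∑ i ∈ A, φ i = k / x + ∑ i ∈ B, φ i := by
  classical
  rcases A.eq_empty_or_nonempty with rfl | ⟨i, hi⟩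
  · exact ⟨0, ∅, Or.inl rfl, hA, by simp, by simp⟩
  obtain ⟨x, h1, h2⟩ := h i (hA i hi)
  exact ⟨x, A.erase i, h1, fun j hj => hA j (mem_of_mem_erase hj), by rw [card_erase_of_mem hi]; omega,
    by rw [← h2, add_sum_erase _ _ hi]⟩

theorem rv_get (y : Fin 9 → ℤ) (a : Fin 9) : (rv y).getD a 0 = ∑ k, W a k * y k := by
  rw [rv, List.getD_eq_getElem _ _ (by simp), List.getElem_ofFn]

theorem main {I : Type*} [Fintype I] (y : I → Fin 9 → ℤ) (d : I → ℕ) (i0 : I) (g : ℕ)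
    (gram : ∀ k l, ∑ i, y i k * y i l = if k = l then nr k else 0) (orth : ∀ k, ∑ i, y i k * d i = 0)
    (h0 : y i0 = ![1, 1, 1, 1, 2, 0, 1, 1, 1]) (d0 : d i0 = 1)
    (hd : ∀ i, 0 < d i ∧ d i ∣ 648 * g ∧ d i ^ 2 ≤ 648 * g)
    (cg : ∀ i, 9 ∣ y i 0 + 4 * y i 1 + 4 * y i 2 ∧ 9 ∣ 2 * y i 0 + 5 * y i 1 + 2 * y i 2 ∧ 2 ∣ y i 1 + y i 6 ∧
      3 ∣ y i 2 - y i 7 ∧ 3 ∣ y i 2 - y i 8 ∧ 4 ∣ y i 0 + y i 3 + y i 4 ∧ 4 ∣ y i 0 + y i 3 - y i 4 ∧
      4 ∣ y i 3 - y i 0 + 2 * y i 5 ∧ ∃ m : ℕ, d i + 6 * y i 0 + 12 * y i 1 + 8 * y i 2 = 27 * m)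
    (hF : ∑ i, (F27 (y i 0) (y i 1) (y i 2) : ℚ) / 27 / d i = 24 / g) (hg : g % 27 = 1) : g = 1 := by
  classical
  have bil : ∀ u v : Fin 9 → ℤ, ∑ i, (∑ k, u k * y i k) * (∑ k, v k * y i k) = ∑ k, u k * v k * nr k := fun u v => by
    simp only [sum_mul_sum]
    rw [sum_comm]
    refine sum_congr rfl fun k _ => ?_
    rw [sum_comm]
    simp only [mul_mul_mul_comm (u k) _ (v _), ← mul_sum, gram, mul_ite, mul_zero, sum_ite_eq, mem_univ, if_true]
  have row : ∀ i, (rv (y i), tag (y i 0) (y i 1) (y i 2)) ∈ T ∨ (rv (-y i), tag (y i 0) (y i 1) (y i 2)) ∈ T := fun i => by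
    let w : Fin 9 → ℤ := fun k => ![6, 12, 8, 54, 27, 324, 108, 72, 72] k * y i k
    have q : ∑ k, w k * y i k < 648 := by
      have e : ∑ j, (∑ k, w k * y j k) * (∑ k, w k * y j k) = 648 * ∑ k, w k * y i k := by
        rw [bil]; simp [w, Fin.sum_univ_succ, nr]; ring
      have e' : ∑ j, (∑ k, w k * y j k) * d j = 0 := by
        simp only [sum_mul]; rw [sum_comm]; simp only [mul_assoc, ← mul_sum, orth, mul_zero, sum_const_zero]
      rw [← add_sum_erase _ _ (mem_univ i)] at e e'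
      have n := sum_nonneg (s := univ.erase i) fun j _ => mul_self_nonneg (∑ k, w k * y j k)
      by_contra! k
      have z : ∑ j ∈ univ.erase i, (∑ k, w k * y j k) * (∑ k, w k * y j k) = 0 := by nlinarith
      rw [sum_eq_zero (s := univ.erase i) fun j hj => by
        rw [mul_self_eq_zero.1 ((sum_eq_zero_iff_of_nonneg fun _ _ => mul_self_nonneg _).1 z j hj), zero_mul]] at e'
      have : (0 : ℤ) < d i := by exact_mod_cast (hd i).1
      nlinarith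
    obtain ⟨c1, c2, c3, c4, c5, c6, c7, c8, -⟩ := cg i
    simp only [w, Fin.sum_univ_succ, mul_assoc] at q
    simp at q
    have e : y i = ![y i 0, y i 1, y i 2, y i 3, y i 4, y i 5, y i 6, y i 7, y i 8] := by
      funext k; fin_cases k <;> rfl
    have e' : -y i = ![-y i 0, -y i 1, -y i 2, -y i 3, -y i 4, -y i 5, -y i 6, -y i 7, -y i 8] := by
      funext k; fin_cases k <;> rfl
    rw [e', congrArg rv e]
    have p := fun k => mul_self_nonneg (y i k)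
    have := p 0; have := p 1; have := p 2; have := p 3; have := p 4; have := p 5; have := p 6; have := p 7; have := p 8
    refine rows _ (mem_L21 ?_) _ (mem_L21 ?_) ?_ _ (mem_L21 ?_) c1 c2 ?_ _ (mem_L21 ?_) c3 ?_ _ (mem_L21 ?_) c4 ?_ _
      (mem_L21 ?_) c5 ?_ _ (mem_L21 ?_) ?_ _ (mem_L21 ?_) c6 c7 _ (mem_L21 ?_) c8 ?_ <;> omega
  obtain ⟨ρ, h1, h2, h3⟩ : ∃ ρ : I → List ℤ × ℕ, (∀ i, ρ i ∈ T) ∧ (∀ i, (ρ i).2 = tag (y i 0) (y i 1) (y i 2)) ∧
      ∀ i (a b : Fin 9), (ρ i).1.getD a 0 * (ρ i).1.getD b 0 = (∑ k, W a k * y i k) * ∑ k, W b k * y i k := by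
    simp only [← forall_and, ← Classical.skolem (p := fun i (r : List ℤ × ℕ) => r ∈ T ∧ r.2 = tag (y i 0) (y i 1) (y i 2) ∧
      ∀ a b : Fin 9, r.1.getD a 0 * r.1.getD b 0 = (∑ k, W a k * y i k) * ∑ k, W b k * y i k)]
    exact fun i => (row i).elim (fun k => ⟨_, k, rfl, by simp only [rv_get, implies_true]⟩) fun k => ⟨_, k, rfl, by
      simp only [rv_get, Pi.neg_apply, mul_neg, sum_neg_distrib, neg_mul, neg_neg, implies_true]⟩
  have key := srch_sound ρ h1 (by decide +kernel) 15 M0 [] (univ.erase i0) (fun a ha b hb => by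
    have := bil (W ⟨a, ha⟩) (W ⟨b, hb⟩)
    rw [← add_sum_erase _ _ (mem_univ i0), h0, ← eq_sub_iff_add_eq'] at this
    rw [sum_congr rfl fun i _ => h3 i ⟨a, ha⟩ ⟨b, hb⟩, this]
    clear this; revert a b; decide +kernel) srch_ok
  simp only [List.count_nil, zero_add, h2] at key
  let φ : I → ℚ := fun i => (F27 (y i 0) (y i 1) (y i 2) : ℚ) / 27 / d i
  have pt : ∀ c : ℕ, 0 < c → c ≤ 3 → ∀ i, tag (y i 0) (y i 1) (y i 2) = c → ∃ x, Ad g c x ∧ φ i = (c : ℚ) ^ 3 / x :=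
    fun c c0 c3 i k => by
    obtain ⟨m, hm⟩ := (cg i).2.2.2.2.2.2.2.2
    obtain ⟨d1, d2, d3⟩ := hd i
    have d2 : (d i : ℤ) ∣ 648 * g := by exact_mod_cast d2
    have d3 : (d i : ℤ) * d i ≤ 648 * g := by rw [← sq]; exact_mod_cast d3
    rw [tag] at k
    split_ifs at k with k1 k2 <;> try omega
    simp only [φ, ← k2.2, ← k2.1, F27] at hm ⊢
    rcases Int.natAbs_eq_iff.1 k with e | e <;> rw [e] at hm ⊢
    · exact ⟨d i, Or.inr ⟨by omega, by omega, d2, d3⟩, by push_cast; ring⟩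
    · exact ⟨-d i, Or.inr ⟨by omega, by omega, neg_dvd.2 d2, by rwa [neg_mul_neg]⟩, by push_cast; ring⟩
  obtain ⟨s, B1, a1, -, b1, e1⟩ := peel (pt 1 (by omega) (by omega)) (fun i hi => (mem_filter.1 hi).2) (key 1 (by omega))
  obtain ⟨p, B2, a2, -, b2, e2⟩ := peel (pt 2 (by omega) (by omega)) (fun i hi => (mem_filter.1 hi).2) (key 2 (by omega))
  obtain ⟨u, B3, a3, c3, b3, e3⟩ := peel (pt 3 (by omega) (by omega)) (fun i hi => (mem_filter.1 hi).2) (key 3 (by omega))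
  obtain ⟨v, B4, a4, -, b4, e4⟩ := peel (pt 3 (by omega) (by omega)) c3 b3
  rw [e4] at e3
  rw [Nat.le_zero, card_eq_zero] at b1 b2 b4
  subst b1 b2 b4
  refine fin a1 a2 a3 a4 hg ?_
  rw [← hF, ← add_sum_erase _ _ (mem_univ i0), h0, d0]
  simp only [sum_empty, add_zero, sum_filter] at e1 e2 e3
  have : ∑ i ∈ univ.erase i0, φ i = _ + _ + _ := (sum_congr rfl fun i hi => ?_).trans
    ((sum_add_distrib.trans (congrArg₂ _ (sum_add_distrib.trans (congrArg₂ _ e1 e2)) e3)))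
  · rw [this]; simp [F27]; ring
  by_cases k : tag (y i 0) (y i 1) (y i 2) ≤ 3
  · generalize e : tag (y i 0) (y i 1) (y i 2) = t at k
    interval_cases t <;> simp
    rw [tag] at e
    split_ifs at e with k1 k2 <;> try omega
    · simp [φ, k1]
    · exact (k1 (by rw [← k2.2, ← k2.1, Int.natAbs_eq_zero.1 e]; rfl)).elim
  · have := key _ (by omega : tag (y i 0) (y i 1) (y i 2) ≠ 0)
    rw [bd, if_neg (by omega), if_neg (by omega), Nat.le_zero, card_eq_zero, filter_eq_empty_iff] at this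
    exact (this hi rfl).elim

end N9
end H6
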