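import Cfsg.Agent.H6.N9b
import Cfsg.Agent.H6.Tri
/-! The character theory for the recognition of `3³:S₄`: nine special classes (`N9.Dat`) force index one (`Dat.main`). -/
set_option autoImplicit false
open H5 Cfsg Finset Subgroup
open scoped ComplexConjugate
namespace H6
namespace N9

variable {G : Type*} [Group G]

theorem mult [Finite G] {χ : G → ℂ} (h : IsCharacter G χ) {x : G} {n : ℕ} (hx : x ^ n = 1) {ζ : ℂ} (hζ : ζ ^ n = 1) :
    ∃ N : ℕ, ∑ k ∈ range n, χ (x ^ k) * ζ ^ k = n * N := by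
  classical
  obtain ⟨m, ε, -, h1, h2⟩ := h.exists_eigenvalues x
  refine ⟨(univ.filter fun i => ε i * ζ = 1).card, ?_⟩
  simp only [h2, sum_mul, ← mul_pow]
  rw [sum_comm, card_filter, Nat.cast_sum, mul_sum]
  refine sum_congr rfl fun i _ => ?_
  split_ifs with e
  · simp [e]
  · obtain ⟨c, hc⟩ := orderOf_dvd_of_pow_eq_one hx
    rw [geom_sum_eq e, mul_pow, hζ, hc, pow_mul, h1]; simp

theorem dif [Finite G] {χ : G → ℂ} (h : IsCharacter G χ) {x : G} {n : ℕ} (hx : x ^ (3 * n) = 1) {ζ ω : ℂ}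
    (hζ : ζ ^ (3 * n) = 1) (hω : ω ^ 3 = 1) :
    ∃ D : ℤ, ∑ k ∈ range (3 * n), χ (x ^ k) * ζ ^ k * (1 - ω ^ (k % 3)) = 3 * n * D := by
  obtain ⟨a, ha⟩ := mult h hx hζ
  obtain ⟨b, hb⟩ := mult h hx (ζ := ζ * ω) (by rw [mul_pow, hζ, pow_mul, hω]; simp)
  refine ⟨a - b, ?_⟩
  simp only [← pow_eq_pow_mod _ hω, mul_sub, sum_sub_distrib, mul_one, ha, mul_assoc, ← mul_pow, hb]
  push_cast; ring

abbrev V27 : Type := Multiplicative (ZMod 3 × ZMod 3 × ZMod 3)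
def v27 (i j k : ZMod 3) : V27 := Multiplicative.ofAdd (i, j, k)

theorem pow_val_add {x : G} (h : x ^ 3 = 1) (i j : ZMod 3) : x ^ (i + j).val = x ^ i.val * x ^ j.val := by
  rw [ZMod.val_add, ← pow_eq_pow_mod _ h, pow_add]

def pw {x y z : G} (hx : x ^ 3 = 1) (hy : y ^ 3 = 1) (hz : z ^ 3 = 1) (c1 : Commute x y) (c2 : Commute x z)
    (c3 : Commute y z) : V27 →* G where
  toFun v := x ^ v.toAdd.1.val * (y ^ v.toAdd.2.1.val * z ^ v.toAdd.2.2.val)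
  map_one' := by simp
  map_mul' v w := by
    simp only [toAdd_mul, Prod.fst_add, Prod.snd_add, pow_val_add hx, pow_val_add hy, pow_val_add hz]
    rw [(c3.pow_pow _ _).mul_mul_mul_comm, ((c1.pow_pow _ _).mul_right (c2.pow_pow _ _)).mul_mul_mul_comm]

def wt (m : V27) : Fin 9 :=
  if m.toAdd.1 * m.toAdd.2.1 * m.toAdd.2.2 ≠ 0 then 2 else if m.toAdd.1 ^ 2 + m.toAdd.2.1 ^ 2 + m.toAdd.2.2 ^ 2 = 1 then 0 else 1
def cz : Fin 9 → ℕ := ![108, 54, 81, 12, 12, 12, 6, 9, 9]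
def od : Fin 9 → ℕ := ![1, 1, 1, 2, 4, 4, 2, 3, 3]
def pc : List (Fin 9 × ℕ × Fin 9) := [(0, 2, 0), (1, 2, 1), (2, 2, 2), (3, 2, 0), (3, 4, 0), (3, 5, 3), (4, 2, 3), (4, 4, 0),
  (4, 5, 5), (4, 7, 5), (4, 8, 0), (4, 10, 3), (4, 11, 4), (6, 2, 1), (6, 4, 1), (6, 5, 6), (7, 2, 7), (7, 3, 2), (7, 4, 7),
  (7, 5, 7), (7, 6, 2), (7, 7, 7), (7, 8, 7), (8, 2, 8), (8, 3, 2), (8, 4, 8), (8, 5, 8), (8, 6, 2), (8, 7, 8), (8, 8, 8)]

structure Dat (v : Fin 9 → G) (ι : V27 →* G) : Prop where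
  nc : ∀ k l, IsConj (v k) (v l) → k = l
  ne : ∀ k, v k ≠ 1
  cent : ∀ k, Nat.card (centralizer ({v k} : Set G)) = cz k
  ord : ∀ k, v k ^ (3 * od k) = 1
  pow : ∀ t ∈ pc, IsConj (v t.2.2) (v t.1 ^ t.2.1)
  inj : Function.Injective ι
  cls : ∀ m, m ≠ 1 → IsConj (v (wt m)) (ι m)
  tri : ∀ a ∈ [v27 1 0 0, v27 1 1 0], ∀ m b, IsConj (ι m) b → (b * ι a) ^ 3 = 1 → b ∈ ι.range ∨ IsConj (ι a) b

def cnt (a : V27) (k l : Fin 9) : ℕ := (univ.filter fun m => (m ≠ 1 ∧ wt m = k) ∧ (m * a)⁻¹ ≠ 1 ∧ wt (m * a)⁻¹ = l).card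

namespace Dat

variable [Finite G] {v : Fin 9 → G} {ι : V27 →* G} (h : Dat v ι)
include h

omit [Finite G] in
theorem iff (k : Fin 9) (m : V27) : IsConj (v k) (ι m) ↔ m ≠ 1 ∧ wt m = k := by
  refine ⟨fun e => ?_, fun e => e.2 ▸ h.cls m e.1⟩
  have : m ≠ 1 := by rintro rfl; exact h.ne k (isConj_one_left.1 (map_one ι ▸ e))
  exact ⟨this, h.nc _ _ ((h.cls m this).trans e.symm)⟩

theorem tcv {a : V27} (ha : a ∈ [v27 1 0 0, v27 1 1 0]) (b c : V27) (n : b ≠ 1 ∧ c ≠ 1 ∧ ¬ (wt a = wt b ∧ wt a = wt c)) :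
    (Nat.card G : ℂ) * ∑ χ : IrrCharacter G, (χ : G → ℂ) (v (wt a)) * (χ : G → ℂ) (v (wt b)) * (χ : G → ℂ) (v (wt c)) /
      (χ : G → ℂ) 1 = (cnt a (wt b) (wt c) * cz (wt b) * cz (wt c) : ℕ) := by
  have a1 : a ≠ 1 := (by decide : ∀ a ∈ [v27 1 0 0, v27 1 1 0], a ≠ 1) a ha
  have p : ∀ {m x}, IsConj (ι m) x → x ^ 3 = 1 := fun {m x} e => by
    have := e.pow 3
    rwa [← map_pow, (by decide : ∀ m : V27, m ^ 3 = 1), map_one, isConj_one_right] at this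
  have hb := (h.cls b n.1).symm
  have hc := (h.cls c n.2.1).symm
  rw [cnt, ← h.cent, ← h.cent, ← tc_count h.inj a _ _ (fun b' h1 h2 => ?_) _ fun m => by rw [h.iff, h.iff], tc_eq]
  · simp only [fun χ : IrrCharacter G => χ.2.isClassFunction.eq_of_isConj (h.cls a a1)]
  have k := p (hc.trans h2)
  rcases h.tri a ha b b' (hb.trans h1) (by rwa [inv_pow, inv_eq_one] at k) with e | e
  · exact e
  rcases h.tri a ha c _ (hc.trans h2) (by
    rw [show (b' * ι a)⁻¹ * ι a = (ι a)⁻¹ * b'⁻¹ * (ι a)⁻¹⁻¹ by group, conj_pow, inv_pow, p (hb.trans h1)]; simp) with e' | e'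
  · simpa using mul_mem (inv_mem e') (inv_mem (ι.mem_range.2 ⟨a, rfl⟩))
  · exact (n.2.2 ⟨((h.iff _ _).1 (h1.trans e.symm)).2, ((h.iff _ _).1 (h2.trans e'.symm)).2⟩).elim

theorem ints (χ : IrrCharacter G) {ω : ℂ} (hω : ω ^ 2 + ω + 1 = 0) : ∃ y : Fin 9 → ℤ,
    (∀ k, (y k : ℂ) = ![(χ : G → ℂ) (v 0), (χ : G → ℂ) (v 1), (χ : G → ℂ) (v 2), (χ : G → ℂ) (v 3),
      (χ : G → ℂ) (v 4) + (χ : G → ℂ) (v 5), Complex.I * (ω - ω ^ 2) / 6 * ((χ : G → ℂ) (v 4) - (χ : G → ℂ) (v 5)),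
      (χ : G → ℂ) (v 6), (χ : G → ℂ) (v 7), (χ : G → ℂ) (v 8)] k) ∧
    9 ∣ y 0 + 4 * y 1 + 4 * y 2 ∧ 9 ∣ 2 * y 0 + 5 * y 1 + 2 * y 2 ∧ 2 ∣ y 1 + y 6 ∧
      3 ∣ y 2 - y 7 ∧ 3 ∣ y 2 - y 8 ∧ 4 ∣ y 0 + y 3 + y 4 ∧ 4 ∣ y 0 + y 3 - y 4 ∧
      4 ∣ y 3 - y 0 + 2 * y 5 ∧ ∃ m : ℕ, charDegree (χ : G → ℂ) + 6 * y 0 + 12 * y 1 + 8 * y 2 = 27 * m := by
  have ω3 : ω ^ 3 = 1 := by linear_combination (ω - 1) * hω
  have c := χ.2.isCharacter
  have P := fun t ht => (c.isClassFunction.eq_of_isConj (h.pow t ht)).symm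
  simp only [pc, List.forall_mem_cons] at P
  obtain ⟨D0, e0⟩ := dif c (h.ord 0) (one_pow _) ω3
  obtain ⟨D1, e1⟩ := dif c (h.ord 1) (one_pow _) ω3
  obtain ⟨D2, e2⟩ := dif c (h.ord 2) (one_pow _) ω3
  obtain ⟨D3, e3⟩ := dif c (h.ord 3) (one_pow _) ω3
  obtain ⟨D4, e4⟩ := dif c (h.ord 4) (one_pow _) ω3
  obtain ⟨E4, f4⟩ := dif c (h.ord 4) (ζ := -1) (by rw [show 3 * od 4 = 2 * 6 from rfl, pow_mul]; simp) ω3
  obtain ⟨F4, g4⟩ := dif c (h.ord 4) (ζ := Complex.I) (by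
    rw [show 3 * od 4 = 4 * 3 from rfl, pow_mul, Complex.I_pow_four, one_pow]) ω3
  obtain ⟨D6, e6⟩ := dif c (h.ord 6) (one_pow _) ω3
  obtain ⟨D7, e7⟩ := dif c (h.ord 7) (one_pow _) ω3
  obtain ⟨D8, e8⟩ := dif c (h.ord 8) (one_pow _) ω3
  obtain ⟨N7, n7⟩ := mult c (h.ord 7) (one_pow _)
  obtain ⟨N8, n8⟩ := mult c (h.ord 8) (one_pow _)
  simp [od, sum_range_succ, P, pow_succ Complex.I, ← χ.2.coe_charDegree] at e0 e1 e2 e3 e4 f4 g4 e6 e7 e8 n7 n8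
  have a0 : (χ : G → ℂ) (v 0) = D0 := by linear_combination e0 / 3 + (χ : G → ℂ) (v 0) / 3 * hω
  have a1 : (χ : G → ℂ) (v 1) = D1 := by linear_combination e1 / 3 + (χ : G → ℂ) (v 1) / 3 * hω
  have a2 : (χ : G → ℂ) (v 2) = D2 := by linear_combination e2 / 3 + (χ : G → ℂ) (v 2) / 3 * hω
  have a7 : (χ : G → ℂ) (v 7) = D7 := by linear_combination e7 / 9 + (χ : G → ℂ) (v 7) / 3 * hω
  have a8 : (χ : G → ℂ) (v 8) = D8 := by linear_combination e8 / 9 + (χ : G → ℂ) (v 8) / 3 * hω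
  rw [a0] at e3 e4 f4 g4
  rw [a1] at e6
  rw [a2, a7] at n7
  rw [a2, a8] at n8
  have a3 : (χ : G → ℂ) (v 3) = (2 * D3 - D0 : ℤ) := by
    push_cast; linear_combination e3 / 3 + ((χ : G → ℂ) (v 3) + D0) / 3 * hω
  have a6 : (χ : G → ℂ) (v 6) = (2 * D6 - D1 : ℤ) := by
    push_cast; linear_combination e6 / 3 + ((χ : G → ℂ) (v 6) + D1) / 3 * hω
  rw [a3] at e4 f4 g4
  push_cast at e4 f4 g4
  have a4 : (χ : G → ℂ) (v 4) + (χ : G → ℂ) (v 5) = (4 * D4 - 2 * D3 : ℤ) := by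
    push_cast; linear_combination e4 / 3 + ((χ : G → ℂ) (v 4) + (χ : G → ℂ) (v 5) + 2 * D3) / 3 * hω
  have a5 : Complex.I * (ω - ω ^ 2) / 6 * ((χ : G → ℂ) (v 4) - (χ : G → ℂ) (v 5)) = (D0 - D3 - 2 * F4 : ℤ) := by
    push_cast; linear_combination -g4 / 6 - (2 * D0 - 2 * D3) / 6 * hω
  have b4 : (2 * D3 - (4 * D4 - 2 * D3) : ℤ) = 4 * E4 := by
    have : ((2 * D3 - (4 * D4 - 2 * D3) : ℤ) : ℂ) = (4 * E4 : ℤ) := by
      rw [Int.cast_sub, ← a4]
      push_cast; linear_combination f4 / 3 + (-(χ : G → ℂ) (v 4) - (χ : G → ℂ) (v 5) + 2 * D3) / 3 * hω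
    exact_mod_cast this
  have n7 : (charDegree (χ : G → ℂ) + 2 * D2 + 6 * D7 : ℤ) = 9 * N7 := by
    have : ((charDegree (χ : G → ℂ) + 2 * D2 + 6 * D7 : ℤ) : ℂ) = (9 * N7 : ℤ) := by push_cast; linear_combination n7
    exact_mod_cast this
  have n8 : (charDegree (χ : G → ℂ) + 2 * D2 + 6 * D8 : ℤ) = 9 * N8 := by
    have : ((charDegree (χ : G → ℂ) + 2 * D2 + 6 * D8 : ℤ) : ℂ) = (9 * N8 : ℤ) := by push_cast; linear_combination n8
    exact_mod_cast this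
  let val : V27 → ℤ := fun m => if m = 1 then charDegree (χ : G → ℂ) else if wt m = 0 then D0 else if wt m = 1 then D1 else D2
  have hv : ∀ m, (χ : G → ℂ) (ι m) = val m := fun m => by
    by_cases e : m = 1
    · simp only [val, e, map_one, if_true, Int.cast_natCast, χ.2.coe_charDegree]
    rw [← c.isClassFunction.eq_of_isConj (h.cls m e)]
    rcases (by decide : ∀ m, wt m = 0 ∨ wt m = 1 ∨ wt m = 2) m with k | k | k <;> simp [val, e, k, a0, a1, a2]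
  have s : ∀ f : V27 →* V27, ∃ n : ℕ, (univ.filter fun m => f m = 1).card * (charDegree (χ : G → ℂ) : ℤ) +
      (((univ.filter fun m => ¬ f m = 1).filter fun m => wt (f m) = 0).card * D0 +
      ((((univ.filter fun m => ¬ f m = 1).filter fun m => ¬ wt (f m) = 0).filter fun m => wt (f m) = 1).card * D1 +
      (((univ.filter fun m => ¬ f m = 1).filter fun m => ¬ wt (f m) = 0).filter fun m => ¬ wt (f m) = 1).card * D2)) =
      27 * n := fun f => by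
    obtain ⟨n, hn⟩ := (c.comp (ι.comp f)).exists_classInner_nat isCharacter_one
    rw [classInner_one_right, inv_mul_eq_iff_eq_mul₀ card_ne_zero_complex, show Nat.card V27 = 27 by simp] at hn
    simp only [MonoidHom.comp_apply, hv] at hn
    have : ∑ m, val (f m) = 27 * n := by exact_mod_cast hn
    simp only [val, sum_ite, sum_const, nsmul_eq_mul] at this
    exact ⟨n, this⟩
  obtain ⟨m0, h0⟩ := s (MonoidHom.id _)
  obtain ⟨m1, h1⟩ := s (pw (x := v27 1 0 0) (y := v27 0 1 0) (z := 1) (by decide) (by decide) (by decide)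
    (Commute.all _ _) (Commute.all _ _) (Commute.all _ _))
  obtain ⟨m2, h2⟩ := s (pw (x := v27 1 1 0) (y := v27 0 0 1) (z := 1) (by decide) (by decide) (by decide)
    (Commute.all _ _) (Commute.all _ _) (Commute.all _ _))
  rw [show card _ = 1 by decide +kernel, show card _ = 6 by decide +kernel, show card _ = 12 by decide +kernel,
    show card _ = 8 by decide +kernel] at h0
  rw [show card _ = 3 by decide +kernel, show card _ = 12 by decide +kernel, show card _ = 12 by decide +kernel,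
    show card _ = 0 by decide +kernel] at h1
  rw [show card _ = 3 by decide +kernel, show card _ = 6 by decide +kernel, show card _ = 6 by decide +kernel,
    show card _ = 12 by decide +kernel] at h2
  refine ⟨![D0, D1, D2, 2 * D3 - D0, 4 * D4 - 2 * D3, D0 - D3 - 2 * F4, 2 * D6 - D1, D7, D8], fun k => ?_, ?_⟩
  · fin_cases k
    exacts [a0.symm, a1.symm, a2.symm, a3.symm, a4.symm, a5.symm, a6.symm, a7.symm, a8.symm]
  · refine ⟨?_, ?_, ?_, ?_, ?_, ?_, ?_, ?_, m0, ?_⟩ <;> simp only [Matrix.cons_val] <;> omega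

theorem main {g : ℕ} (hG : Nat.card G = 648 * g) (hg : g % 27 = 1) : g = 1 := by
  classical
  have := Fintype.ofFinite G
  obtain ⟨ω, hω⟩ : ∃ ω : ℂ, ω ^ 2 + ω + 1 = 0 := ⟨(-1 + Complex.I * (√3 : ℝ)) / 2, by
    have : ((√3 : ℝ) : ℂ) ^ 2 = 3 := by rw [← Complex.ofReal_pow, Real.sq_sqrt (by norm_num)]; simp
    linear_combination (((√3 : ℝ) : ℂ) ^ 2 * Complex.I_sq - this) / 4⟩
  choose y hy cg using fun χ => h.ints χ hω
  set κ := Complex.I * (ω - ω ^ 2) / 6 with hκ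
  have κ2 : κ * conj κ = 1 / 12 := by
    have e : κ * κ = 1 / 12 := by
      rw [hκ]; linear_combination (ω - ω ^ 2) ^ 2 / 36 * Complex.I_sq - (ω ^ 2 - 3 * ω + 3) / 36 * hω
    have := Complex.mul_conj κ
    have e2 : Complex.normSq κ * Complex.normSq κ = 1 / 12 * (1 / 12) := by rw [← map_mul, e]; simp
    rw [this, (mul_self_inj (Complex.normSq_nonneg κ) (by norm_num)).1 e2]; simp
  have o : ∀ k l, ∑ χ : IrrCharacter G, (χ : G → ℂ) (v k) * conj ((χ : G → ℂ) (v l)) = if k = l then (cz k : ℂ) else 0 :=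
    fun k l => by
    rw [column_orthogonality, h.cent]
    exact if_congr ⟨h.nc k l, fun e => e ▸ IsConj.refl _⟩ rfl rfl
  have o1 := fun k => sum_degree_mul_apply_of_ne_one (h.ne k)
  refine N9.main y (fun χ => charDegree (χ : G → ℂ)) (irrOne G) g (fun k l => ?_) (fun k => ?_) ?_ ?_ (fun χ => ⟨χ.2.charDegree_pos,
    hG ▸ χ.2.charDegree_dvd_card, ?_⟩) cg ?_ hg
  · have : ∑ χ : IrrCharacter G, (y χ k : ℂ) * conj (y χ l : ℂ) = (if k = l then nr k else 0 : ℤ) := by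
      simp only [hy]
      fin_cases k <;> fin_cases l <;>
        simp [mul_add, add_mul, mul_sub, sub_mul, sum_add_distrib, sum_sub_distrib, mul_assoc κ,
          mul_left_comm _ (conj κ), ← mul_sum, o, cz, nr]
      · norm_num
      · linear_combination 24 * κ2
    simp only [map_intCast] at this
    exact_mod_cast this
  · have : ∑ χ : IrrCharacter G, (χ : G → ℂ) 1 * (y χ k : ℂ) = 0 := by
      simp only [hy]
      fin_cases k <;> simp [mul_add, mul_sub, sum_add_distrib, sum_sub_distrib, mul_left_comm _ κ, ← mul_sum, o1]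
    simp only [fun χ : IrrCharacter G => χ.2.coe_charDegree.symm, mul_comm _ (y _ _ : ℂ)] at this
    exact_mod_cast this
  · funext k
    refine Int.cast_injective (α := ℂ) ?_
    rw [hy]; fin_cases k <;> simp
    norm_num
  · exact Nat.cast_injective (R := ℂ) (by simp [(irrOne G).2.coe_charDegree])
  · have := sum_sq_degrees (G := G)
    simp only [fun χ : IrrCharacter G => χ.2.coe_charDegree.symm] at this
    have : ∑ χ : IrrCharacter G, charDegree (χ : G → ℂ) ^ 2 = Nat.card G := by exact_mod_cast this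
    rw [← hG, ← this]
    exact single_le_sum (f := fun χ : IrrCharacter G => charDegree (χ : G → ℂ) ^ 2) (fun _ _ => Nat.zero_le _) (mem_univ χ)
  have t1 := h.tcv (a := v27 1 0 0) (by simp) (v27 1 0 0) (v27 1 1 0) (by decide)
  have t2 := h.tcv (a := v27 1 0 0) (by simp) (v27 1 0 0) (v27 1 1 1) (by decide)
  have t3 := h.tcv (a := v27 1 0 0) (by simp) (v27 1 1 0) (v27 1 1 0) (by decide)
  have t4 := h.tcv (a := v27 1 1 0) (by simp) (v27 1 1 0) (v27 1 1 1) (by decide)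
  have t5 := h.tcv (a := v27 1 0 0) (by simp) (v27 1 1 1) (v27 1 1 1) (by decide)
  have t6 := h.tcv (a := v27 1 1 0) (by simp) (v27 1 1 1) (v27 1 1 1) (by decide)
  have t7 := h.tcv (a := v27 1 0 0) (by simp) (v27 1 1 0) (v27 1 1 1) (by decide)
  rw [show cnt _ _ _ * _ * _ = 23328 by decide +kernel] at t1
  rw [show cnt _ _ _ * _ * _ = 0 by decide +kernel] at t2
  rw [show cnt _ _ _ * _ * _ = 11664 by decide +kernel] at t3
  rw [show cnt _ _ _ * _ * _ = 17496 by decide +kernel] at t4 t7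
  rw [show cnt _ _ _ * _ * _ = 26244 by decide +kernel] at t5
  rw [show cnt _ _ _ * _ * _ = 13122 by decide +kernel] at t6
  have y0 : ∀ χ : IrrCharacter G, (χ : G → ℂ) (v (wt (v27 1 0 0))) = y χ 0 := fun χ => (hy χ 0).symm
  have y1 : ∀ χ : IrrCharacter G, (χ : G → ℂ) (v (wt (v27 1 1 0))) = y χ 1 := fun χ => (hy χ 1).symm
  have y2 : ∀ χ : IrrCharacter G, (χ : G → ℂ) (v (wt (v27 1 1 1))) = y χ 2 := fun χ => (hy χ 2).symm
  simp only [y0, y1, y2, hG, fun χ : IrrCharacter G => χ.2.coe_charDegree.symm] at t1 t2 t3 t4 t5 t6 t7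
  refine Rat.cast_injective (α := ℂ) ?_
  have g0 : (g : ℂ) ≠ 0 := Nat.cast_ne_zero.2 (by omega)
  push_cast [F27] at t1 t2 t3 t4 t5 t6 t7 ⊢
  simp only [div_right_comm _ (27 : ℂ), add_div, mul_add, mul_div_assoc (4 : ℂ), mul_div_assoc (3 : ℂ), ← sum_div,
    sum_add_distrib, ← mul_sum]
  rw [eq_div_iff g0]
  linear_combination (4 * (t1 + t2 + t3 + t4 + t5 + t6) + 3 * t7) / 27 / 648

end Dat

end N9
end H6
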