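import Cfsg.Agent.H6.N9c
/-! The group `K = 3³:S₄ ≤ S₉`: a parametrisation `pb` of its `648` elements, and computations with it. -/
set_option autoImplicit false
open Finset Subgroup Equiv
namespace H6
namespace N9

def gl : Fin 4 → Perm (Fin 9) := ![swap 0 1 * swap 1 2,
  swap 0 3 * swap 3 6 * (swap 1 4 * swap 4 7) * (swap 2 5 * swap 5 8), swap 0 1 * swap 3 4,
  swap 0 3 * swap 1 4 * swap 2 5 * swap 6 7]
def K : Subgroup (Perm (Fin 9)) := closure (Set.range gl)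
def gk (i : Fin 4) : K := ⟨gl i, subset_closure ⟨i, rfl⟩⟩

theorem ind {P : K → Prop} (h1 : P 1) (h : ∀ i σ, P σ → P (gk i * σ)) (σ : K) : P σ := by
  obtain ⟨σ, hσ⟩ := σ
  have := hσ
  rw [K, ← mem_toSubmonoid, closure_toSubmonoid_of_finite] at this
  induction this using Submonoid.closure_induction_left with
  | one => exact h1
  | mul_left x hx y hy ih =>
    obtain ⟨i, rfl⟩ := hx
    exact h i _ (ih (by rwa [K, ← mem_toSubmonoid, closure_toSubmonoid_of_finite]))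

def Rp (σ : K) (f : ℕ → ℕ) : Prop := ∀ x : Fin 9, ((σ : Perm (Fin 9)) x : ℕ) = f x

theorem Rp.mul {σ τ : K} {f g : ℕ → ℕ} (h : Rp σ f) (h' : Rp τ g) : Rp (σ * τ) fun x => f (g x) := fun x =>
  (h _).trans (congrArg f (h' x))
theorem Rp.pow {σ : K} {f : ℕ → ℕ} (h : Rp σ f) : ∀ n : ℕ, Rp (σ ^ n) f^[n]
  | 0 => fun _ => rfl
  | n + 1 => by rw [pow_succ]; exact (h.pow n).mul h
theorem Rp.eq {σ τ : K} {f g : ℕ → ℕ} (h : Rp σ f) (h' : Rp τ g) : σ = τ ↔ ∀ x < 9, f x = g x :=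
  ⟨fun e x hx => (h ⟨x, hx⟩).symm.trans (e ▸ h' ⟨x, hx⟩), fun e => Subtype.ext (Equiv.ext fun x => Fin.ext (by
    rw [h, h', e x x.2]))⟩
theorem Rp.one {σ : K} {f : ℕ → ℕ} (h : Rp σ f) : σ = 1 ↔ ∀ x < 9, f x = x := h.eq (g := id) fun _ => rfl

def gp (i : Fin 4) (x : ℕ) : ℕ := [381366892, 91399548, 381361204, 376916772].getD i 0 / 9 ^ x % 9
theorem rg : ∀ i, Rp (gk i) (gp i) := by unfold Rp; decide +kernel
def gw (w : List (Fin 4)) : K := (w.map gk).prod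
def ev (w : List (Fin 4)) (x : ℕ) : ℕ := w.foldr gp x
theorem rw' : ∀ w, Rp (gw w) (ev w)
  | [] => fun _ => rfl
  | i :: w => (rg i).mul (rw' w)

def WS : List (List (Fin 4)) := [[], [1, 1, 2, 0, 1, 0], [1, 2, 0, 1, 0, 1], [3, 2, 0, 3, 0], [1], [2, 0, 1, 0],
  [1, 1, 2, 0, 1, 0, 1], [1, 3, 2, 0, 3, 0], [1, 1], [1, 2, 0, 1, 0], [2, 0, 1, 0, 1], [2, 0, 1, 2, 1, 0], [3, 2, 0, 1, 2],
  [3, 1, 2, 0], [1, 2, 1, 0, 3], [1, 3, 2, 0, 1, 0, 1, 0], [0, 0, 1, 3], [3, 1, 1, 0], [2, 1, 0, 3], [3, 2, 0, 1, 0, 1, 0],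
  [3, 1, 1, 0, 1], [2, 1, 3, 1, 0], [0, 0, 1, 3, 1], [3, 2, 1, 0, 1, 0, 1, 0]]
def pb (n : ℕ) : K := gw (WS.getD (n / 27) []) *
  (gw [0] ^ (n % 3) * (gw [3, 0, 3] ^ (n / 3 % 3) * gw [1, 1, 0, 1] ^ (n / 9 % 3)))
def ap (n x : ℕ) : ℕ := fN n fun n => fN x fun x => 3 * ([21, 7, 11, 15, 5, 19].getD (n / 108) 0 / 3 ^ (x / 3) % 3) +
  ([n / 27, n / 54, n / 27 + n / 54 + n / 324].getD (x / 3) 0 % 2 + 1) * (x + n / 3 ^ (x / 3)) % 3
def dec (f : ℕ → ℕ) : ℕ := fN ((f 1 + 5 - f 0 % 3) % 3) fun a => fN ((f 4 + 5 - f 3 % 3) % 3) fun b =>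
  (a + 1) * f 0 % 3 + 3 * ((b + 1) * f 3 % 3) + 9 * (((f 7 + 5 - f 6 % 3) % 3 + 1) * f 6 % 3) + 27 * a + 54 * b +
  108 * [0, 0, 3, 5, 0, 1, 2, 4].getD (f 0 / 3 * 3 + f 3 / 3) 0

theorem c1 : ∀ n < 648, ∀ x < 9, ev (WS.getD (n / 27) []) ((ev [0])^[n % 3] ((ev [3, 0, 3])^[n / 3 % 3]
  ((ev [1, 1, 0, 1])^[n / 9 % 3] x))) = ap n x := by decide +kernel
theorem c2 : ∀ i, ∀ n < 648, dec (fun x => gp i (ap n x)) < 648 ∧
  ∀ x < 9, gp i (ap n x) = ap (dec fun x => gp i (ap n x)) x := by decide +kernel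
theorem c3 : ∀ n < 648, dec (ap n) = n := by decide +kernel

theorem rb {n : ℕ} (h : n < 648) : Rp (pb n) (ap n) := fun x =>
  ((rw' _).mul (((rw' _).pow _).mul (((rw' _).pow _).mul ((rw' _).pow _))) x).trans (c1 n h x x.2)

theorem nf (σ : K) : ∃ n < 648, σ = pb n := by
  induction σ using ind with
  | h1 => exact ⟨0, by omega, ((rb (by omega)).one.2 (by decide)).symm⟩
  | h i σ ih =>
    obtain ⟨n, hn, rfl⟩ := ih
    exact ⟨_, (c2 i n hn).1, (((rg i).mul (rb hn)).eq (rb (c2 i n hn).1)).2 (c2 i n hn).2⟩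

theorem pb_inj {m n : ℕ} (hm : m < 648) (hn : n < 648) (e : pb m = pb n) : m = n := by
  have := ((rb hm).eq (rb hn)).1 e
  rw [← c3 m hm, ← c3 n hn]
  simp only [dec, this 0, this 1, this 3, this 4, this 6, this 7, Nat.ofNat_pos, Nat.one_lt_ofNat, Nat.reduceLT]

theorem card_K : Nat.card K = 648 := by
  rw [← Nat.card_congr (Equiv.ofBijective (fun n : Fin 648 => pb n) ⟨fun m n e => Fin.ext (pb_inj m.2 n.2 e), fun σ => by
    obtain ⟨n, hn, rfl⟩ := nf σ; exact ⟨⟨n, hn⟩, rfl⟩⟩), Nat.card_fin]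

def j0 : V27 →* K := pw (x := gw [0]) (y := gw [3, 0, 3]) (z := gw [1, 1, 0, 1]) (((rw' _).pow 3).one.2 (by decide))
  (((rw' _).pow 3).one.2 (by decide)) (((rw' _).pow 3).one.2 (by decide)) ((((rw' _).mul (rw' _)).eq ((rw' _).mul (rw' _))).2
  (by decide)) ((((rw' _).mul (rw' _)).eq ((rw' _).mul (rw' _))).2 (by decide))
  ((((rw' _).mul (rw' _)).eq ((rw' _).mul (rw' _))).2 (by decide))
def cm (m : V27) : ℕ := m.toAdd.1.val + 3 * m.toAdd.2.1.val + 9 * m.toAdd.2.2.val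

theorem j0_eq (m : V27) : j0 m = pb (cm m) := by
  obtain ⟨a, b, c, d⟩ := (by decide : ∀ m, cm m / 27 = 0 ∧ cm m % 3 = m.toAdd.1.val ∧ cm m / 3 % 3 = m.toAdd.2.1.val ∧
    cm m / 9 % 3 = m.toAdd.2.2.val) m
  rw [pb, a, b, c, d]; exact (one_mul _).symm
theorem cm_lt : ∀ m, cm m < 648 := by decide
theorem rj (m : V27) : Rp (j0 m) (ap (cm m)) := j0_eq m ▸ rb (cm_lt m)
theorem j0_inj : Function.Injective j0 := fun m n e => (by decide +kernel : ∀ m n, cm m = cm n → m = n) m n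
  (pb_inj (cm_lt m) (cm_lt n) (by rwa [← j0_eq, ← j0_eq]))
theorem mem_j0 {n : ℕ} (h : n < 27) : pb n ∈ j0.range := by
  obtain ⟨m, rfl⟩ := (by decide +kernel : ∀ n < 27, ∃ m, cm m = n) n h
  exact ⟨m, j0_eq m⟩

def rp : Fin 9 → ℕ := ![1, 4, 13, 55, 325, 326, 542, 109, 217]
def rep (k : Fin 9) : K := pb (rp k)
theorem rr (k : Fin 9) : Rp (rep k) (ap (rp k)) := rb (by revert k; decide)

theorem c4 : ∀ k l, cz k = cz l → k = l ∨ ∀ n < 648, ¬ ∀ x < 9, ap n (ap (rp k) x) = ap (rp l) (ap n x) := by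
  decide +kernel
def cmt (k : Fin 9) (n : ℕ) : Prop := ∀ x < 9, ap n (ap (rp k) x) = ap (rp k) (ap n x)
instance instDecCmt (k : Fin 9) (n : ℕ) : Decidable (cmt k n) := Nat.decidableBallLT _ _
theorem c5 : ∀ k, ((range 648).filter (cmt k)).card = cz k := by
  decide +kernel
theorem c11 : ∀ n < 648, 27 ≤ n → ((∀ x < 9, (ap n)^[12] x = x) ∧ ¬ ∀ x < 9, (ap n)^[3] x = x) ∨
    (∀ x < 9, (fun x => ap n (ap 324 (ap n (ap 378 x))))^[12] x = x) ∧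
      ¬ ∀ x < 9, (fun x => ap n (ap 324 (ap n (ap 378 x))))^[3] x = x := by decide +kernel
theorem c12 : ∀ a ∈ [v27 1 0 0, v27 1 1 0], ∀ n < 648, (∀ x < 9, ap n (ap (cm a) x) = ap (cm a) (ap n x)) →
    (∀ x < 9, (ap n)^[3] x = x) → n < 27 := by decide +kernel

end N9
end H6
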