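import Cfsg.Agent.H6.N9d
import Cfsg.Agent.H29.Basic
/-! Classes, centralizers and the `3`-core of `K = 3³:S₄`, and its recognition (`N9.top`). -/
set_option autoImplicit false
open Finset Subgroup Equiv
namespace H6
namespace N9

theorem rep_ord (k : Fin 9) : rep k ^ (3 * od k) = 1 ∧ rep k ≠ 1 :=
  ⟨((rr k).pow _).one.2 (by revert k; decide +kernel), mt (rr k).one.1 (by revert k; decide +kernel)⟩

theorem rep_pow (t : Fin 9 × ℕ × Fin 9) (ht : t ∈ pc) : IsConj (rep t.2.2) (rep t.1 ^ t.2.1) := by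
  obtain ⟨n, hn, e⟩ := (by decide +kernel : ∀ t ∈ pc, ∃ n ∈ [0, 5, 7, 27, 81, 83, 405, 406, 408, 413], ∀ x < 9,
    ap n (ap (rp t.2.2) x) = (ap (rp t.1))^[t.2.1] (ap n x)) t ht
  have hn : n < 648 := by clear e; revert n; decide
  exact isConj_iff.2 ⟨pb n, mul_inv_eq_iff_eq_mul.2 ((((rb hn).mul (rr _)).eq (((rr _).pow _).mul (rb hn))).2 e)⟩

theorem rep_cls (m : V27) (h : m ≠ 1) : IsConj (rep (wt m)) (j0 m) := by
  obtain ⟨n, hn, e⟩ := (by decide +kernel : ∀ m, m ≠ 1 → ∃ n < 24, ∀ x < 9,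
    ap (27 * n) (ap (rp (wt m)) x) = ap (cm m) (ap (27 * n) x)) m h
  have hn : 27 * n < 648 := by omega
  exact isConj_iff.2 ⟨pb _, mul_inv_eq_iff_eq_mul.2 ((((rb hn).mul (rr _)).eq ((rj _).mul (rb hn))).2 e)⟩

theorem rep_j (k : Fin 9) : ∃ e m, m ≠ 1 ∧ rep k ^ e = j0 m := by
  obtain ⟨n, -, m, hm, e⟩ := (by decide +kernel : ∀ k, ∃ e < 5, ∃ m, m ≠ 1 ∧ ∀ x < 9, (ap (rp k))^[e] x = ap (cm m) x) k
  exact ⟨n, m, hm, (((rr k).pow n).eq (rj m)).2 e⟩

theorem j0_normal : j0.range.Normal := ⟨by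
  rintro _ ⟨m, rfl⟩ σ
  induction σ using ind with
  | h1 => simp
  | h i σ ih =>
    obtain ⟨m', e⟩ := ih
    obtain ⟨m'', e'⟩ := (by decide +kernel : ∀ i m, ∃ m', ∀ x < 9, ap (cm m') (gp i x) = gp i (ap (cm m) x)) i m'
    refine ⟨m'', ?_⟩
    rw [mul_inv_rev, ← mul_assoc, mul_assoc (gk i), mul_assoc (gk i), ← e, eq_mul_inv_iff_mul_eq]
    exact (((rj _).mul (rg i)).eq ((rg i).mul (rj _))).2 e'⟩

theorem le_j0 (N : Subgroup K) (hN : N.Normal) (h : IsPGroup 3 N) : N ≤ j0.range := fun σ hσ => by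
  obtain ⟨n, hn, rfl⟩ := nf σ
  refine mem_j0 (not_le.1 fun k => ?_)
  have p : ∀ y ∈ N, y ^ 12 = 1 → y ^ 3 = 1 := fun y hy e => by
    obtain ⟨k, hk⟩ := h ⟨y, hy⟩
    have a := orderOf_dvd_of_pow_eq_one (congrArg Subtype.val hk : y ^ 3 ^ k = 1)
    exact orderOf_dvd_iff_pow_eq_one.1 (((Nat.Coprime.pow_left k (by norm_num : Nat.Coprime 3 4)).coprime_dvd_left
      a).dvd_of_dvd_mul_left (orderOf_dvd_of_pow_eq_one e))
  have i : (pb 324)⁻¹ = pb 378 := inv_eq_of_mul_eq_one_right (((rb (by omega)).mul (rb (by omega))).one.2 (by decide))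
  have r := (rb hn).mul ((rb (n := 324) (by omega)).mul ((rb hn).mul (rb (n := 378) (by omega))))
  rcases c11 n hn k with ⟨a, b⟩ | ⟨a, b⟩
  · exact b (((rb hn).pow 3).one.1 (p _ hσ (((rb hn).pow 12).one.2 a)))
  · exact b ((r.pow 3).one.1 (p _ (N.mul_mem hσ (by rw [← i, ← mul_assoc]; exact hN.conj_mem _ hσ _)) ((r.pow 12).one.2 a)))

theorem cen3 {a : V27} (ha : a ∈ [v27 1 0 0, v27 1 1 0]) {σ : K} (c : σ * j0 a = j0 a * σ) (h : σ ^ 3 = 1) :
    σ ∈ j0.range := by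
  obtain ⟨n, hn, rfl⟩ := nf σ
  exact mem_j0 (c12 a ha n hn ((((rb hn).mul (rj a)).eq ((rj a).mul (rb hn))).1 c) (((rb hn).pow 3).one.1 h))

theorem card_cen (k : Fin 9) : Nat.card (centralizer ({rep k} : Set K)) = cz k := by
  classical
  have := Fintype.ofFinite K
  rw [← c5, Nat.card_eq_fintype_card, Fintype.card_subtype]
  refine (card_bij (fun n _ => pb n) (fun n hn => ?_) (fun m hm n hn => pb_inj ?_ ?_) fun σ hσ => ?_).symm
  · have := mem_range.1 (mem_filter.1 hn).1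
    exact mem_filter.2 ⟨mem_univ _, mem_centralizer_singleton_iff.2
      ((((rb this).mul (rr k)).eq ((rr k).mul (rb this))).2 (mem_filter.1 hn).2)⟩
  · exact mem_range.1 (mem_filter.1 hm).1
  · exact mem_range.1 (mem_filter.1 hn).1
  · obtain ⟨n, hn, rfl⟩ := nf σ
    exact ⟨n, mem_filter.2 ⟨mem_range.2 hn, (((rb hn).mul (rr k)).eq ((rr k).mul (rb hn))).1
      (mem_centralizer_singleton_iff.1 (mem_filter.1 hσ).2)⟩, rfl⟩

theorem rep_nc {k l : Fin 9} (e : IsConj (rep k) (rep l)) : k = l := by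
  refine (c4 k l (by rw [← card_cen, ← card_cen, H5.card_centralizer_eq_of_isConj e])).resolve_right fun h => ?_
  obtain ⟨σ, e⟩ := isConj_iff.1 e
  obtain ⟨n, hn, rfl⟩ := nf σ
  exact h n hn ((((rb hn).mul (rr k)).eq ((rr l).mul (rb hn))).1 (mul_inv_eq_iff_eq_mul.1 e))

variable {G : Type*} [Group G] [Finite G]

theorem tri0 {a b : G} (a3 : a ^ 3 = 1) (hb : b ^ 3 = 1) (hab : (b * a) ^ 3 = 1) :
    (∃ z, z ≠ 1 ∧ z ^ 3 = 1 ∧ z * a = a * z ∧ b * a⁻¹ * z = z * (b * a⁻¹)) ∨ IsConj a b := by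
  obtain ⟨u, rfl⟩ : ∃ u, b = u * a := ⟨b * a⁻¹, by simp⟩
  rw [mul_inv_cancel_right]
  have e1 : u * (a * u * a⁻¹) * (a * (a * u * a⁻¹) * a⁻¹) = 1 := by
    calc _ = (u * a) ^ 3 * (a ^ 3)⁻¹ := by simp only [pow_succ]; group
      _ = 1 := by rw [hb, a3]; simp
  have e2 : Commute u (a * u * a⁻¹) := by
    have : (a * u * a⁻¹) * u * (a * (a * u * a⁻¹) * a⁻¹) = 1 := by
      calc _ = a * u * (a ^ 3)⁻¹ * (a * a * u * a * a * u * a * a) * (a ^ 3)⁻¹ * a⁻¹ := by group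
        _ = a * (u * a * a) ^ 3 * a⁻¹ := by rw [a3]; simp only [pow_succ]; group
        _ = 1 := by rw [hab]; simp
    exact mul_right_cancel (e1.trans this.symm)
  have k : ∀ n : ℕ, a * (a * u ^ n * a⁻¹) * a⁻¹ = (u ^ n * (a * u ^ n * a⁻¹))⁻¹ := fun n => by
    rw [← conj_pow, ← conj_pow, ← e2.mul_pow, ← inv_pow, ← eq_inv_of_mul_eq_one_right e1]
  have c : ∀ m n : ℕ, Commute (u ^ m) (a * u ^ n * a⁻¹) := fun m n => by rw [← conj_pow]; exact e2.pow_pow m n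
  by_cases d : 3 ∣ orderOf u
  · obtain ⟨n, hn⟩ := d
    have s3 : (u ^ n) ^ 3 = 1 := by rw [← pow_mul, mul_comm, ← hn, pow_orderOf_eq_one]
    have s1 : u ^ n ≠ 1 := pow_ne_one_of_lt_orderOf (by have := orderOf_pos u; omega) (by have := orderOf_pos u; omega)
    left
    by_cases e : u ^ n * (a * u ^ n * a⁻¹)⁻¹ = 1
    · exact ⟨u ^ n, s1, s3, by rw [mul_inv_eq_one, eq_mul_inv_iff_mul_eq] at e; exact e, (Commute.self_pow u n).eq⟩
    have t3 : (a * u ^ n * a⁻¹) ^ 3 = 1 := by rw [conj_pow, s3]; simp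
    refine ⟨_, e, by rw [(c n n).inv_right.mul_pow, s3, inv_pow, t3]; simp, ?_,
      ((Commute.self_pow u n).mul_right (pow_one u ▸ c 1 n).inv_right).eq⟩
    rw [eq_comm, ← mul_inv_eq_iff_eq_mul, ← conj_mul, ← conj_inv, k,
      inv_inv, ← mul_assoc, ← (c n n).eq, mul_assoc, eq_inv_of_mul_eq_one_left ((pow_three' _).symm.trans t3)]
  obtain ⟨n, hn⟩ : ∃ n, (u ^ n) ^ 3 = u := by
    obtain ⟨n, hn⟩ := exists_pow_eq_self_of_coprime (x := u) (n := 3) ((Nat.prime_three.coprime_iff_not_dvd).2 d)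
    exact ⟨n, by rw [← pow_mul, mul_comm, pow_mul, hn]⟩
  refine Or.inr (isConj_iff.2 ⟨u ^ n * u ^ n * (a * u ^ n * a⁻¹), ?_⟩)
  have k1 := k n
  have c1 := (c n n).eq
  generalize u ^ n = s at *
  subst hn
  calc _ = s * s * (a * s * a⁻¹) * (a * (a * s * a⁻¹) * a⁻¹)⁻¹ * (a * s * a⁻¹)⁻¹ * (a * s * a⁻¹)⁻¹ * a := by group
    _ = s * s * ((a * s * a⁻¹) * s) * (a * s * a⁻¹)⁻¹ * a := by rw [k1]; group
    _ = _ := by rw [← c1, pow_three']; group

theorem top {ψ : K →* G} (inj : Function.Injective ψ) (hC : ∀ m, m ≠ 1 → ∀ g, g * ψ (j0 m) = ψ (j0 m) * g → g ∈ ψ.range)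
    (hs : ∀ m g, g * ψ (j0 m) * g⁻¹ ∈ ψ.range → g * ψ (j0 m) * g⁻¹ ∈ (ψ.comp j0).range) : ψ.range = ⊤ := by
  have cen : ∀ k g, g * ψ (rep k) = ψ (rep k) * g → g ∈ ψ.range := fun k g e => by
    obtain ⟨n, m, m1, h⟩ := rep_j k
    exact hC m m1 g (by rw [← h, map_pow]; exact (Commute.pow_right e n).eq)
  have card : ∀ k, Nat.card (centralizer ({ψ (rep k)} : Set G)) = cz k := fun k => by
    rw [← card_cen, ← card_map_of_injective inj]
    congr 2
    ext g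
    simp only [mem_centralizer_singleton_iff, Subgroup.mem_map]
    refine ⟨fun e => ?_, by rintro ⟨σ, e, rfl⟩; rw [← map_mul, e, map_mul]⟩
    obtain ⟨σ, rfl⟩ := cen k g e
    exact ⟨σ, inj (by rw [map_mul, e, map_mul]), rfl⟩
  have cls := fun m h => ψ.map_isConj (rep_cls m h)
  have ctl : ∀ m, m ≠ 1 → ∀ g, g * ψ (j0 m) * g⁻¹ ∈ ψ.range → g ∈ ψ.range := fun m m1 g e => by
    obtain ⟨m', e⟩ := hs m g e
    rw [MonoidHom.comp_apply] at e
    have m1' : m' ≠ 1 := by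
      rintro rfl
      exact m1 (j0_inj (inj (by simpa using e.symm)))
    have w := H5.card_centralizer_eq_of_isConj (((cls m m1).trans (isConj_iff.2 ⟨g, e.symm⟩)).trans (cls m' m1').symm)
    rw [card, card] at w
    obtain ⟨σ, h⟩ := isConj_iff.1 ((rep_cls m' m1').symm.trans
      ((by decide +kernel : ∀ m m', cz (wt m) = cz (wt m') → wt m = wt m') m m' w ▸ rep_cls m m1))
    have := hC m m1 (ψ σ * g) (by
      rw [← mul_inv_eq_iff_eq_mul, mul_inv_rev, ← mul_assoc, mul_assoc (ψ σ), mul_assoc (ψ σ), ← e, ← h]; simp)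
    simpa using mul_mem (inv_mem (ψ.mem_range.2 ⟨σ, rfl⟩)) this
  have p3 : ∀ m, ψ (j0 m) ^ 3 = 1 := fun m => by
    rw [← map_pow, ← map_pow, (by decide : ∀ m : V27, m ^ 3 = 1), map_one, map_one]
  have D : Dat (fun k => ψ (rep k)) (ψ.comp j0) :=
    { nc := fun k l e => by
        obtain ⟨g, e⟩ := isConj_iff.1 e
        obtain ⟨n, m, m1, h⟩ := rep_j k
        obtain ⟨σ, rfl⟩ := ctl m m1 g (by rw [← h, map_pow, ← conj_pow, e]; exact pow_mem (ψ.mem_range.2 ⟨_, rfl⟩) n)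
        exact rep_nc (isConj_iff.2 ⟨σ, inj (by simpa using e)⟩)
      ne := fun k => (map_ne_one_iff ψ inj).2 (rep_ord k).2
      cent := card
      ord := fun k => by rw [← map_pow, (rep_ord k).1, map_one]
      pow := fun t ht => map_pow ψ _ _ ▸ ψ.map_isConj (rep_pow t ht)
      inj := inj.comp j0_inj
      cls := cls
      tri := fun a ha m b e h => by
        obtain ⟨g, rfl⟩ := isConj_iff.1 e
        refine (tri0 (p3 a) (by erw [conj_pow, p3]; simp) h).imp_left fun ⟨z, z1, z3, za, zu⟩ => hs m g ?_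
        obtain ⟨σ, rfl⟩ := hC a ((by decide : ∀ a ∈ [v27 1 0 0, v27 1 1 0], a ≠ 1) a ha) z za
        obtain ⟨n, rfl⟩ := cen3 ha (σ := σ) (inj (by simpa using za)) (inj (by simpa using z3))
        simpa using mul_mem (hC n (by rintro rfl; simp at z1) _ zu) (ψ.mem_range.2 ⟨j0 a, rfl⟩) }
  have c1 : Nat.card ψ.range = 648 := by rw [← card_K, ← Nat.card_congr (ψ.ofInjective inj).toEquiv]
  have c2 : Nat.card (ψ.comp j0).range = 27 := by
    rw [← Nat.card_congr ((ψ.comp j0).ofInjective D.inj).toEquiv]; simp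
  have := H29.card_dvd_of_free (ψ.comp j0).range ({((1 : G) : G ⧸ ψ.range)}ᶜ : Set (G ⧸ ψ.range)) ?_ ?_
  · rw [c2, Nat.card_coe_set_eq, Set.ncard_compl _, Set.ncard_singleton, ← index_eq_card] at this
    have p := Nat.pos_of_ne_zero (index_ne_zero_of_finite (H := ψ.range))
    exact index_eq_one.1 (D.main (by rw [← c1, card_mul_index]) (by omega))
  · rintro _ ⟨m, rfl⟩ s hs e
    refine hs ?_
    rw [Set.mem_singleton_iff, smul_eq_iff_eq_inv_smul] at e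
    exact e.trans (QuotientGroup.eq.2 (by simp))
  · rintro _ ⟨m, rfl⟩ s hs e
    obtain ⟨g, rfl⟩ := QuotientGroup.mk_surjective s
    by_contra n
    refine hs (QuotientGroup.eq.2 ?_)
    have := inv_mem (QuotientGroup.eq.1 e)
    simpa using ctl m (by rintro rfl; simp at n) g⁻¹ (by simpa [mul_assoc] using this)

end N9
end H6
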